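import Mathlib.Algebra.BigOperators.Fin
import Mathlib.Algebra.Module.Torsion.Basic
import Mathlib.LinearAlgebra.FreeModule.PID
import Mathlib.Algebra.Module.PID
import Mathlib.GroupTheory.FiniteAbelian.Basic
import Groth.Prelude.Def_Models

/-!
# The chain of inequalities of the semistable reduction theorem; finiteness of torsion in `Pic(T)`
-/

set_option autoImplicit false

namespace Groth.Agent.Models.H56.Chain

theorem chain {n g t hY hZ hZ' : ℕ} (D C : Fin n → ℕ) (NC NT NX NZ l : ℕ) (hl : 2 ≤ l)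
    (h1 : NC = l ^ (2 * g)) (h2 : NC ≤ NT * NX) (h3 : NT ≤ l ^ t) (h4 : NX ≤ NZ)
    (h5 : NZ ≤ l ^ (hZ + hZ')) (h6 : hZ ≤ hY) (h7 : hZ' ≤ ∑ i, D i) (h8 : ∀ i, D i ≤ C i)
    (h9 : t + ∑ i, C i ≤ hY) (h10 : hY ≤ g) :
    hY = g ∧ hZ = hY ∧ (∀ i, D i = C i) ∧ t + ∑ i, C i = g ∧ NZ = l ^ (hZ + hZ') := by
  have h11 : l ^ (2 * g) ≤ l ^ t * NZ := by
    rw [← h1]
    exact h2.trans (Nat.mul_le_mul h3 h4)
  have h12 : l ^ (2 * g) ≤ l ^ (t + (hZ + hZ')) := by
    rw [pow_add]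
    exact h11.trans (Nat.mul_le_mul_left _ h5)
  have h13 : 2 * g ≤ t + (hZ + hZ') := (Nat.pow_le_pow_iff_right (by omega)).1 h12
  have h14 : ∑ i, D i ≤ ∑ i, C i := Finset.sum_le_sum fun i _ => h8 i
  have h15 : ∑ i, D i = ∑ i, C i := by omega
  have h16 : ∀ i, D i = C i := fun i =>
    (Finset.sum_eq_sum_iff_of_le fun i _ => h8 i).1 h15 i (Finset.mem_univ i)
  refine ⟨by omega, by omega, h16, by omega, le_antisymm h5 ?_⟩
  have h17 : 2 * g = t + (hZ + hZ') := by omega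
  rw [h17, pow_add] at h11
  exact Nat.le_of_mul_le_mul_left h11 (Nat.pow_pos (by omega))

/-- The torsion of the Picard group of a numerical type is finite. -/
theorem finite_torsion {n : ℕ} (T : Models.NumericalType n) (h : ℕ) (hh : h ≠ 0) :
    Finite (Submodule.torsionBy ℤ T.Pic (h : ℤ)) := by
  have hT : Module.IsTorsion ℤ (Submodule.torsionBy ℤ T.Pic (h : ℤ)) := by
    rintro ⟨x, hx⟩
    rw [Submodule.mem_torsionBy_iff] at hx
    refine ⟨⟨(h : ℤ), mem_nonZeroDivisors_of_ne_zero (by exact_mod_cast hh)⟩, ?_⟩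
    exact Subtype.ext hx
  exact Module.finite_of_fg_torsion _ hT

end Groth.Agent.Models.H56.Chain
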