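import Groth.Prelude.Def_Models
import Groth.Prelude.Def_ModelsG
import Groth.Prelude.Def_CurvBase
import Groth.Prelude.Def_CAlg
import Groth.Agent.Grpsch.PicGrp

/-!
# The three curve-theoretic inputs of the core of the semistable reduction theorem
-/

set_option autoImplicit false
universe u
open CategoryTheory CategoryTheory.Limits AlgebraicGeometry TopologicalSpace

namespace Groth.Agent.Models.H56.CoreHyp

open Groth.Agent.Grpsch.PicGrp

/-- Existence of a smooth finite birational model with small genus. -/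
def NormHyp : Prop := ∀ (k : Type u) [Field k] (K : Type u) [Field K] [IsAlgClosed K] [Algebra k K]
  (Y : Scheme.{u}) (f : Y ⟶ Spec (CommRingCat.of k)) [IsProper f] [AlgebraicGeometry.IsReduced Y]
  (n : ℕ) (c : Fin n → Scheme.{u}) (ι : ∀ i, c i ⟶ Y) [∀ i, IsClosedImmersion (ι i)]
  [∀ i, IsIntegral (c i)] (_ : ∀ i, topologicalKrullDim (c i) = 1)
  (_ : Function.Injective fun i => Set.range (ι i))
  (_ : Set.range (fun i => Set.range (ι i)) = irreducibleComponents Y)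
  (Z : Scheme.{u}) (r : Z ⟶ pullback f (Spec.map (CommRingCat.ofHom (algebraMap k K))))
  [IsClosedImmersion r] [AlgebraicGeometry.IsReduced Z] [Surjective r]
  (D : Fin n → Scheme.{u})
  (ρ : ∀ i, D i ⟶ pullback (ι i ≫ f) (Spec.map (CommRingCat.ofHom (algebraMap k K))))
  [∀ i, IsClosedImmersion (ρ i)] [∀ i, Surjective (ρ i)] [∀ i, AlgebraicGeometry.IsReduced (D i)],
  ∃ (Z' : Scheme.{u}) (ν : Z' ⟶ Z) (U : Z.Opens), IsFinite ν ∧ Smooth (ν ≫ r ≫ pullback.snd _ _) ∧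
    Dense (U : Set Z) ∧ Dense ((ν ⁻¹ᵁ U : Z'.Opens) : Set Z') ∧ IsIso (ν ∣_ U) ∧
    Models.curveGenus K Z' (ν ≫ r ≫ pullback.snd _ _) ≤
      ∑ i, Models.curveGenus K (D i) (ρ i ≫ pullback.snd _ _)

/-- The bound for the torsion of the Picard group of a reduced curve. -/
def CountHyp : Prop := ∀ (K : Type u) [Field K] [IsAlgClosed K] (Z Z' : Scheme.{u})
  (f : Z ⟶ Spec (CommRingCat.of K)) [IsProper f] [AlgebraicGeometry.IsReduced Z] [ConnectedSpace Z]
  (_ : ∀ T ∈ irreducibleComponents Z, topologicalKrullDim T = 1) (ν : Z' ⟶ Z) [IsFinite ν]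
  [Smooth (ν ≫ f)] (U : Z.Opens) (_ : Dense (U : Set Z)) (_ : Dense ((ν ⁻¹ᵁ U : Z'.Opens) : Set Z'))
  [IsIso (ν ∣_ U)] (l : ℕ) (_ : l.Prime) (_ : (l : K) ≠ 0),
  Finite {c : Pic Z // c ^ l = 1} ∧ Nat.card {c : Pic Z // c ^ l = 1} ≤
    l ^ (Models.curveGenus K Z f + Models.curveGenus K Z' (ν ≫ f))

/-- Equality characterizes nodal curves among Gorenstein curves. -/
def NodalHyp : Prop := ∀ (K : Type u) [Field K] [IsAlgClosed K] (Z Z' : Scheme.{u})
  (f : Z ⟶ Spec (CommRingCat.of K)) [IsProper f] [AlgebraicGeometry.IsReduced Z] [ConnectedSpace Z]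
  (_ : ∀ T ∈ irreducibleComponents Z, topologicalKrullDim T = 1) (ν : Z' ⟶ Z) [IsFinite ν]
  [Smooth (ν ≫ f)] (U : Z.Opens) (_ : Dense (U : Set Z)) (_ : Dense ((ν ⁻¹ᵁ U : Z'.Opens) : Set Z'))
  [IsIso (ν ∣_ U)] (l : ℕ) (_ : l.Prime) (_ : (l : K) ≠ 0)
  (_ : Nat.card {c : Pic Z // c ^ l = 1} =
    l ^ (Models.curveGenus K Z f + Models.curveGenus K Z' (ν ≫ f)))
  (_ : ∀ z : Z, LocCoh.IsGorensteinLocalRing (Z.presheaf.stalk z)), @Curv2.AtWorstNodal K _ Z ⟨f⟩

end Groth.Agent.Models.H56.CoreHyp
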