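import Mathlib.AlgebraicGeometry.Morphisms.Flat
import Mathlib.LinearAlgebra.TensorProduct.Basis
import Mathlib.RingTheory.TensorProduct.Free
import Mathlib.RingTheory.IsTensorProduct

/-!
# Coordinates of functions on a base change

For a cartesian square of schemes over affine schemes `T → S` such that `Γ(T)` is free over `Γ(S)` with
basis `b`, functions on the preimage of an affine open `U` are uniquely of the form `Σ g^#(a_i) b_i`.
-/

set_option autoImplicit false
universe u

open CategoryTheory CategoryTheory.Limits AlgebraicGeometry TopologicalSpace Opposite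

namespace Groth.Agent.Models.H56.FieldCoord

/-- Ring level: for a pushout of commutative rings, a basis of one side gives a basis of the pushout. -/
theorem bijective_of_isPushout {R A B C : CommRingCat.{u}} {f : R ⟶ A} {g : R ⟶ B} {i : A ⟶ C} {j : B ⟶ C}
    (h : IsPushout f g i j) {ι : Type*} (b : letI := g.hom.toAlgebra; Module.Basis ι R B) :
    Function.Bijective (fun a : ι →₀ A => a.sum fun n x => i.hom x * j.hom (b n)) := by
  let _ := f.hom.toAlgebra
  let _ := g.hom.toAlgebra
  let _ := i.hom.toAlgebra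
  let _ := j.hom.toAlgebra
  let _ := (f ≫ i).hom.toAlgebra
  have : IsScalarTower R A C := IsScalarTower.of_algebraMap_eq' rfl
  have : IsScalarTower R B C := IsScalarTower.of_algebraMap_eq' (by
    change (f ≫ i).hom = (g ≫ j).hom
    rw [h.w])
  have hp : Algebra.IsPushout R A B C := (CommRingCat.isPushout_iff_isPushout).mp h
  let e : TensorProduct R A B ≃ₗ[A] C := hp.out.equiv
  let b' : Module.Basis ι A (TensorProduct R A B) := Algebra.TensorProduct.basis A b
  let b'' : Module.Basis ι A C := b'.map e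
  have hb : ∀ n, b'' n = j.hom (b n) := by
    intro n
    simp only [b'', b', Module.Basis.map_apply, Algebra.TensorProduct.basis_apply]
    change hp.out.equiv (1 ⊗ₜ[R] b n) = _
    rw [IsBaseChange.equiv_tmul, one_smul]
    rfl
  have h1 : (fun a : ι →₀ A => a.sum fun n x => i.hom x * j.hom (b n)) = b''.repr.symm := by
    ext a
    rw [Module.Basis.repr_symm_apply, Finsupp.linearCombination_apply]
    refine Finsupp.sum_congr fun n _ => ?_
    rw [hb, Algebra.smul_def]
    rfl
  rw [h1]
  exact b''.repr.symm.bijective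

variable {X Y S T : Scheme.{u}} {f : T ⟶ S} {g : Y ⟶ X} {iX : X ⟶ S} {iY : Y ⟶ T}

/-- the pull back of functions from `T` to opens of `Y`. -/
noncomputable def cst (iY : Y ⟶ T) (V : Y.Opens) : Γ(T, ⊤) →+* Γ(Y, V) := (iY.appLE ⊤ V le_top).hom

theorem map_cst (iY : Y ⟶ T) {V V' : Y.Opens} (h : V' ≤ V) (c : Γ(T, ⊤)) :
    Y.presheaf.map (homOfLE h).op (cst iY V c) = cst iY V' c := by
  unfold cst
  rw [← CommRingCat.comp_apply, Scheme.Hom.appLE_map]

/-- the function with coordinates `a`. -/
noncomputable def comb (g : Y ⟶ X) (iY : Y ⟶ T) {ι : Type*} (b : ι → Γ(T, ⊤)) (U : X.Opens)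
    (a : ι →₀ Γ(X, U)) : Γ(Y, g ⁻¹ᵁ U) :=
  a.sum fun n x => g.app U x * cst iY (g ⁻¹ᵁ U) (b n)

theorem comb_single (g : Y ⟶ X) (iY : Y ⟶ T) {ι : Type*} (b : ι → Γ(T, ⊤)) (U : X.Opens)
    (n : ι) (x : Γ(X, U)) :
    comb g iY b U (Finsupp.single n x) = g.app U x * cst iY (g ⁻¹ᵁ U) (b n) := by
  unfold comb
  rw [Finsupp.sum_single_index]
  rw [map_zero, zero_mul]

theorem comb_add (g : Y ⟶ X) (iY : Y ⟶ T) {ι : Type*} (b : ι → Γ(T, ⊤)) (U : X.Opens)
    (a a' : ι →₀ Γ(X, U)) : comb g iY b U (a + a') = comb g iY b U a + comb g iY b U a' := by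
  classical
  unfold comb
  rw [Finsupp.sum_add_index']
  · intro n; rw [map_zero, zero_mul]
  · intro n x y; rw [map_add, add_mul]

theorem comb_neg (g : Y ⟶ X) (iY : Y ⟶ T) {ι : Type*} (b : ι → Γ(T, ⊤)) (U : X.Opens)
    (a : ι →₀ Γ(X, U)) : comb g iY b U (-a) = - comb g iY b U a := by
  have h : comb g iY b U (a + -a) = comb g iY b U a + comb g iY b U (-a) := comb_add ..
  rw [add_neg_cancel] at h
  have h0 : comb g iY b U 0 = 0 := by
    unfold comb
    rw [Finsupp.sum_zero_index]
  rw [h0] at h
  exact (neg_eq_of_add_eq_zero_right h.symm).symm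

theorem comb_sub (g : Y ⟶ X) (iY : Y ⟶ T) {ι : Type*} (b : ι → Γ(T, ⊤)) (U : X.Opens)
    (a a' : ι →₀ Γ(X, U)) : comb g iY b U (a - a') = comb g iY b U a - comb g iY b U a' := by
  rw [sub_eq_add_neg, comb_add, comb_neg, sub_eq_add_neg]

/-- restriction of coordinates. -/
noncomputable def resC {ι : Type*} {U U' : X.Opens} (h : U' ≤ U) (a : ι →₀ Γ(X, U)) : ι →₀ Γ(X, U') :=
  a.mapRange (X.presheaf.map (homOfLE h).op) (map_zero _)

theorem resC_apply {ι : Type*} {U U' : X.Opens} (h : U' ≤ U) (a : ι →₀ Γ(X, U)) (n : ι) :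
    resC h a n = X.presheaf.map (homOfLE h).op (a n) := rfl

theorem comb_res (g : Y ⟶ X) (iY : Y ⟶ T) {ι : Type*} (b : ι → Γ(T, ⊤)) {U U' : X.Opens}
    (h : U' ≤ U) (a : ι →₀ Γ(X, U)) :
    Y.presheaf.map (homOfLE (g.preimage_mono h)).op (comb g iY b U a) = comb g iY b U' (resC h a) := by
  induction a using Finsupp.induction_linear with
  | zero =>
    have h0 : ∀ W : X.Opens, comb g iY b W 0 = 0 := fun W => by
      unfold comb
      rw [Finsupp.sum_zero_index]
    have h1 : resC h (0 : ι →₀ Γ(X, U)) = 0 := by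
      ext n
      simp [resC]
    rw [h1, h0, h0, map_zero]
  | add a a' ha ha' =>
    have h1 : resC h (a + a') = resC h a + resC h a' := by
      ext n
      simp [resC]
    rw [comb_add, map_add, ha, ha', h1, comb_add]
  | single n x =>
    have h1 : resC h (Finsupp.single n x) = Finsupp.single n (X.presheaf.map (homOfLE h).op x) := by
      unfold resC
      rw [Finsupp.mapRange_single]
    rw [h1, comb_single, comb_single, map_mul, map_cst]
    congr 1
    exact congr($(g.naturality (homOfLE h).op) x).symm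

/-- multiplying coordinates by a function from below. -/
noncomputable def mulC {ι : Type*} {U : X.Opens} (t : Γ(X, U)) (a : ι →₀ Γ(X, U)) : ι →₀ Γ(X, U) :=
  a.mapRange (fun x => t * x) (mul_zero _)

theorem comb_mul (g : Y ⟶ X) (iY : Y ⟶ T) {ι : Type*} (b : ι → Γ(T, ⊤)) (U : X.Opens)
    (t : Γ(X, U)) (a : ι →₀ Γ(X, U)) :
    g.app U t * comb g iY b U a = comb g iY b U (mulC t a) := by
  induction a using Finsupp.induction_linear with
  | zero =>
    have h0 : comb g iY b U 0 = 0 := by
      unfold comb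
      rw [Finsupp.sum_zero_index]
    have h1 : mulC t (0 : ι →₀ Γ(X, U)) = 0 := by
      ext n
      simp [mulC]
    rw [h1, h0, mul_zero]
  | add a a' ha ha' =>
    have h1 : mulC t (a + a') = mulC t a + mulC t a' := by
      ext n
      simp [mulC, mul_add]
    rw [comb_add, mul_add, ha, ha', h1, comb_add]
  | single n x =>
    have h1 : mulC t (Finsupp.single n x) = Finsupp.single n (t * x) := by
      unfold mulC
      rw [Finsupp.mapRange_single]
    rw [h1, comb_single, comb_single, map_mul, mul_assoc]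

/-- functions on the preimage of an affine open have unique coordinates. -/
theorem comb_bijective (H : IsPullback g iY iX f) [IsAffine S] [IsAffine T] {ι : Type*}
    (b : letI := f.appTop.hom.toAlgebra; Module.Basis ι Γ(S, ⊤) Γ(T, ⊤)) {U : X.Opens}
    (hU : IsAffineOpen U) : Function.Bijective (comb g iY b U) := by
  have h1 : IsIso (pushoutSection H (US := ⊤) (UT := ⊤) (UX := U) (UY := g ⁻¹ᵁ U)
      le_top le_top (by simp)) :=
    isIso_pushoutSection_of_isAffineOpen H le_top le_top (by simp) (isAffineOpen_top S)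
      (isAffineOpen_top T) hU
  rw [isIso_pushoutSection_iff] at h1
  have h2 := bijective_of_isPushout h1 (ι := ι)
  have e1 : f.appLE ⊤ ⊤ le_top = f.appTop := by
    simp [Scheme.Hom.appLE]
  have e2 : g.appLE U (g ⁻¹ᵁ U) le_rfl = g.app U := by
    simp [Scheme.Hom.appLE]
  rw [e1, e2] at h2
  exact h2 b

end Groth.Agent.Models.H56.FieldCoord
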