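import Groth.Agent.Picfga.ChiCech
import Groth.Agent.CurvesC.UnitCoh

/-!
# Functions dying on a closed subscheme with the same `H^1`

Let `ρ : D → W` be a closed immersion of schemes over a field, `W = U ∪ V` with `U`, `V`, `U ∩ V` affine and
`dim H^1(W, O) ≤ dim H^1(D, O)`, both finite. Then every function on `U ∩ V` which restricts to zero on `D`
is a difference of functions on `U` and on `V`. Also `dim H^1(D, O) ≤ dim H^1(W, O)` always.
-/

set_option autoImplicit false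
universe u

open CategoryTheory CategoryTheory.Limits AlgebraicGeometry TopologicalSpace Opposite

namespace Groth.Agent.Models.H56.NilSplit

open Groth.Agent.Picfga.ChiCech

section LinAlg

variable {K : Type*} [Field K] {P Q P' Q' : Type*} [AddCommGroup P] [AddCommGroup Q] [AddCommGroup P']
  [AddCommGroup Q'] [Module K P] [Module K Q] [Module K P'] [Module K Q']

theorem exists_factor (q : P →ₗ[K] Q) (q' : P' →ₗ[K] Q') (ψ : P →ₗ[K] P') (hq : Function.Surjective q)
    (hker : ∀ x, q x = 0 → q' (ψ x) = 0) : ∃ φ : Q →ₗ[K] Q', ∀ x, φ (q x) = q' (ψ x) := by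
  refine ⟨((LinearMap.ker q).liftQ (q'.comp ψ) fun x hx => hker x hx).comp
    (q.quotKerEquivOfSurjective hq).symm.toLinearMap, fun x => ?_⟩
  have h : (q.quotKerEquivOfSurjective hq).symm (q x) = Submodule.Quotient.mk x := by
    rw [LinearEquiv.symm_apply_eq]
    rfl
  rw [LinearMap.comp_apply, LinearEquiv.coe_coe, h]
  rfl

theorem finrank_le (q : P →ₗ[K] Q) (q' : P' →ₗ[K] Q') (ψ : P →ₗ[K] P') (hq : Function.Surjective q)
    (hq' : Function.Surjective q') (hψ : Function.Surjective ψ) (hker : ∀ x, q x = 0 → q' (ψ x) = 0)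
    [FiniteDimensional K Q] : FiniteDimensional K Q' ∧ Module.finrank K Q' ≤ Module.finrank K Q := by
  obtain ⟨φ, hφ⟩ := exists_factor q q' ψ hq hker
  have hs : Function.Surjective φ := by
    intro y
    obtain ⟨z, rfl⟩ := hq' y
    obtain ⟨x, rfl⟩ := hψ z
    exact ⟨q x, hφ x⟩
  have hf := Module.Finite.of_surjective φ hs
  exact ⟨hf, LinearMap.finrank_le_finrank_of_surjective hs⟩

theorem eq_zero_of_finrank_le (q : P →ₗ[K] Q) (q' : P' →ₗ[K] Q') (ψ : P →ₗ[K] P')
    (hq : Function.Surjective q)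
    (hq' : Function.Surjective q') (hψ : Function.Surjective ψ) (hker : ∀ x, q x = 0 → q' (ψ x) = 0)
    [FiniteDimensional K Q] (hle : Module.finrank K Q ≤ Module.finrank K Q') (x : P) (hx : ψ x = 0) :
    q x = 0 := by
  obtain ⟨φ, hφ⟩ := exists_factor q q' ψ hq hker
  have hs : Function.Surjective φ := by
    intro y
    obtain ⟨z, rfl⟩ := hq' y
    obtain ⟨x, rfl⟩ := hψ z
    exact ⟨q x, hφ x⟩
  have hf := Module.Finite.of_surjective φ hs
  have he : Module.finrank K Q = Module.finrank K Q' :=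
    le_antisymm hle (LinearMap.finrank_le_finrank_of_surjective hs)
  have hi : Function.Injective φ := (LinearMap.injective_iff_surjective_of_finrank_eq_finrank he).2 hs
  apply hi
  rw [hφ, hx, map_zero, map_zero]

end LinAlg

variable (K : Type u) [Field K] {W D : Scheme.{u}} [W.Over (Spec (CommRingCat.of K))]
  [D.Over (Spec (CommRingCat.of K))] (ρ : D ⟶ W)

theorem app_str (hρ : ρ ≫ (W ↘ Spec (CommRingCat.of K)) = D ↘ Spec (CommRingCat.of K))
    (U : W.Opens) (c : K) : (ρ.app U).hom (str K U c) = str K (ρ ⁻¹ᵁ U) c := by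
  have h1 : Coh.toGlobal (D ↘ Spec (CommRingCat.of K)) c =
      ρ.appTop.hom (Coh.toGlobal (W ↘ Spec (CommRingCat.of K)) c) := by
    rw [← hρ]
    change ((ρ ≫ (W ↘ Spec (CommRingCat.of K))).appTop).hom _ = _
    rw [Scheme.Hom.comp_appTop]
    rfl
  change (ρ.app U).hom (W.presheaf.map (homOfLE le_top).op
    (Coh.toGlobal (W ↘ Spec (CommRingCat.of K)) c)) =
    D.presheaf.map (homOfLE le_top).op (Coh.toGlobal (D ↘ Spec (CommRingCat.of K)) c)
  rw [h1]
  exact congr($(ρ.naturality (homOfLE (le_top (a := U))).op) _)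

/-- functions as sections of the structure module. -/
noncomputable def toS (X : Scheme.{u}) [X.Over (Spec (CommRingCat.of K))] (U : X.Opens) :
    Γ(X, U) ≃+ SecA K (Coh.structureModule X) U := AddEquiv.refl _

theorem toS_smul (X : Scheme.{u}) [X.Over (Spec (CommRingCat.of K))] (U : X.Opens) (c : K)
    (x : Γ(X, U)) : c • toS K X U x = toS K X U (str K U c * x) := rfl

/-- restriction of functions to `D`, linearly. -/
noncomputable def resFun (hρ : ρ ≫ (W ↘ Spec (CommRingCat.of K)) = D ↘ Spec (CommRingCat.of K))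
    (U : W.Opens) :
    SecA K (Coh.structureModule W) U →ₗ[K] SecA K (Coh.structureModule D) (ρ ⁻¹ᵁ U) where
  toFun x := toS K D (ρ ⁻¹ᵁ U) ((ρ.app U).hom ((toS K W U).symm x))
  map_add' x y := by
    rw [map_add, map_add, map_add]
  map_smul' c x := by
    obtain ⟨x, rfl⟩ := (toS K W U).surjective x
    rw [toS_smul, AddEquiv.symm_apply_apply, AddEquiv.symm_apply_apply, map_mul, app_str K ρ hρ,
      RingHom.id_apply, toS_smul]

theorem resFun_toS (hρ : ρ ≫ (W ↘ Spec (CommRingCat.of K)) = D ↘ Spec (CommRingCat.of K))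
    (U : W.Opens) (x : Γ(W, U)) :
    resFun K ρ hρ U (toS K W U x) = toS K D (ρ ⁻¹ᵁ U) (ρ.app U x) := rfl

theorem cechD_toS (X : Scheme.{u}) [X.Over (Spec (CommRingCat.of K))] (U V : X.Opens)
    (a : Γ(X, U)) (b : Γ(X, V)) :
    cechD K (Coh.structureModule X) U V (toS K X U a, toS K X V b) =
      toS K X (U ⊓ V) (X.presheaf.map (homOfLE inf_le_left).op a -
        X.presheaf.map (homOfLE inf_le_right).op b) := rfl

theorem resFun_surjective (hρ : ρ ≫ (W ↘ Spec (CommRingCat.of K)) = D ↘ Spec (CommRingCat.of K))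
    [IsClosedImmersion ρ] {U : W.Opens} (hU : IsAffineOpen U) :
    Function.Surjective (resFun K ρ hρ U) := by
  intro y
  obtain ⟨y, rfl⟩ := (toS K D (ρ ⁻¹ᵁ U)).surjective y
  obtain ⟨x, rfl⟩ := ρ.app_surjective U hU y
  exact ⟨toS K W U x, rfl⟩

theorem resFun_ker (hρ : ρ ≫ (W ↘ Spec (CommRingCat.of K)) = D ↘ Spec (CommRingCat.of K))
    {U V : W.Opens} (hcov : U ⊔ V = ⊤) (hcov' : ρ ⁻¹ᵁ U ⊔ ρ ⁻¹ᵁ V = ⊤)
    (x : SecA K (Coh.structureModule W) (U ⊓ V))
    (hx : h1Map K (Coh.structureModule W) hcov x = 0) :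
    h1Map K (Coh.structureModule D) hcov' (resFun K ρ hρ (U ⊓ V) x) = 0 := by
  rw [← LinearMap.mem_ker, ker_h1Map] at hx ⊢
  obtain ⟨⟨a, b⟩, hab⟩ := hx
  obtain ⟨a, rfl⟩ := (toS K W U).surjective a
  obtain ⟨b, rfl⟩ := (toS K W V).surjective b
  rw [cechD_toS] at hab
  refine ⟨(toS K D _ (ρ.app U a), toS K D _ (ρ.app V b)), ?_⟩
  rw [cechD_toS, ← hab, resFun_toS]
  have e1 := congr($(ρ.naturality (homOfLE (inf_le_left : U ⊓ V ≤ U)).op) a)
  have e2 := congr($(ρ.naturality (homOfLE (inf_le_right : U ⊓ V ≤ V)).op) b)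
  have e3 := map_sub (ρ.app (U ⊓ V)).hom (W.presheaf.map (homOfLE (inf_le_left : U ⊓ V ≤ U)).op a)
    (W.presheaf.map (homOfLE (inf_le_right : U ⊓ V ≤ V)).op b)
  exact congrArg (toS K D (ρ ⁻¹ᵁ (U ⊓ V))) ((congrArg₂ (· - ·) e1.symm e2.symm).trans e3.symm)

/-- a closed immersion does not increase `dim H^1(O)` in dimension one. -/
theorem finrank_H1_le (hρ : ρ ≫ (W ↘ Spec (CommRingCat.of K)) = D ↘ Spec (CommRingCat.of K))
    [IsClosedImmersion ρ] {U V : W.Opens} (hcov : U ⊔ V = ⊤) (hU : IsAffineOpen U)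
    (hV : IsAffineOpen V) (hUV : IsAffineOpen (U ⊓ V))
    [FiniteDimensional K (Coh.HH W (Coh.structureModule W) 1)] :
    FiniteDimensional K (Coh.HH D (Coh.structureModule D) 1) ∧
      Module.finrank K (Coh.HH D (Coh.structureModule D) 1) ≤
        Module.finrank K (Coh.HH W (Coh.structureModule W) 1) := by
  have hcov' : ρ ⁻¹ᵁ U ⊔ ρ ⁻¹ᵁ V = ⊤ := by
    rw [← Scheme.Hom.preimage_sup, hcov, Scheme.Hom.preimage_top]
  exact finrank_le (h1Map K (Coh.structureModule W) hcov) (h1Map K (Coh.structureModule D) hcov')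
    (resFun K ρ hρ (U ⊓ V))
    (h1Map_surjective K _ (CurvesC.UnitCoh.isQCoh_unit W) hcov hU hV)
    (h1Map_surjective K _ (CurvesC.UnitCoh.isQCoh_unit D) hcov' (hU.preimage ρ) (hV.preimage ρ))
    (resFun_surjective K ρ hρ hUV) (resFun_ker K ρ hρ hcov hcov')

/-- functions dying on `D` are Cech coboundaries if `D` has the same `H^1`. -/
theorem exists_sub_of_app_eq_zero (hρ : ρ ≫ (W ↘ Spec (CommRingCat.of K)) = D ↘ Spec (CommRingCat.of K))
    [IsClosedImmersion ρ] {U V : W.Opens} (hcov : U ⊔ V = ⊤) (hU : IsAffineOpen U)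
    (hV : IsAffineOpen V) (hUV : IsAffineOpen (U ⊓ V))
    [FiniteDimensional K (Coh.HH W (Coh.structureModule W) 1)]
    (hle : Module.finrank K (Coh.HH W (Coh.structureModule W) 1) ≤
      Module.finrank K (Coh.HH D (Coh.structureModule D) 1)) (x : Γ(W, U ⊓ V))
    (hx : ρ.app (U ⊓ V) x = 0) :
    ∃ (a : Γ(W, U)) (b : Γ(W, V)), W.presheaf.map (homOfLE inf_le_left).op a -
        W.presheaf.map (homOfLE inf_le_right).op b = x := by
  have hcov' : ρ ⁻¹ᵁ U ⊔ ρ ⁻¹ᵁ V = ⊤ := by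
    rw [← Scheme.Hom.preimage_sup, hcov, Scheme.Hom.preimage_top]
  have h1 := eq_zero_of_finrank_le (h1Map K (Coh.structureModule W) hcov)
    (h1Map K (Coh.structureModule D) hcov') (resFun K ρ hρ (U ⊓ V))
    (h1Map_surjective K _ (CurvesC.UnitCoh.isQCoh_unit W) hcov hU hV)
    (h1Map_surjective K _ (CurvesC.UnitCoh.isQCoh_unit D) hcov' (hU.preimage ρ) (hV.preimage ρ))
    (resFun_surjective K ρ hρ hUV) (resFun_ker K ρ hρ hcov hcov') hle (toS K W (U ⊓ V) x)
    ((congrArg (toS K D (ρ ⁻¹ᵁ (U ⊓ V))) hx).trans (map_zero _))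
  rw [← LinearMap.mem_ker, ker_h1Map] at h1
  obtain ⟨⟨a, b⟩, hab⟩ := h1
  obtain ⟨a, rfl⟩ := (toS K W U).surjective a
  obtain ⟨b, rfl⟩ := (toS K W V).surjective b
  rw [cechD_toS] at hab
  exact ⟨a, b, (toS K W (U ⊓ V)).injective hab⟩

/-- if every function on `U ∩ V` is a difference, then `H^1` vanishes. -/
theorem finrank_H1_eq_zero {U V : W.Opens} (hcov : U ⊔ V = ⊤) (hU : IsAffineOpen U)
    (hV : IsAffineOpen V) (h : ∀ x : Γ(W, U ⊓ V), ∃ (a : Γ(W, U)) (b : Γ(W, V)),
      W.presheaf.map (homOfLE inf_le_left).op a - W.presheaf.map (homOfLE inf_le_right).op b = x) :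
    Module.finrank K (Coh.HH W (Coh.structureModule W) 1) = 0 := by
  have : Subsingleton (Coh.HH W (Coh.structureModule W) 1) := by
    refine subsingleton_of_forall_eq 0 fun y => ?_
    obtain ⟨x, rfl⟩ := h1Map_surjective K _ (CurvesC.UnitCoh.isQCoh_unit W) hcov hU hV y
    obtain ⟨x, rfl⟩ := (toS K W (U ⊓ V)).surjective x
    rw [← LinearMap.mem_ker, ker_h1Map]
    obtain ⟨a, b, hab⟩ := h x
    exact ⟨(toS K W U a, toS K W V b), by rw [cechD_toS, hab]⟩
  exact Module.finrank_zero_of_subsingleton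

end Groth.Agent.Models.H56.NilSplit
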