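import Groth.Agent.Models.H56.FieldCoord
import Groth.Agent.Models.H56.NilSplit
import Groth.Agent.Models.H217.H1Red
import Groth.Agent.S0002
import Groth.Agent.S0217
import Groth.Agent.Etcore.CurveTop
import Groth.Agent.CurvesA.DimOne
import Groth.Agent.CurvesB.PointSection

/-!
# Curves with inseparable field of constants

Let `C` be integral and proper of dimension `≤ 1` over a field `k`, `K` an extension of `k`, and `D` a
reduced closed subscheme of `C_K` with `dim H^1(C, O) ≤ dim H^1(D, O)`. If `Γ(C_K, O)` is not reduced then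
`H^1(C, O) = 0`.
-/

set_option autoImplicit false
universe u

open CategoryTheory CategoryTheory.Limits AlgebraicGeometry TopologicalSpace Opposite

namespace Groth.Agent.Models.H56.Insep

open FieldCoord

/-- A separated Noetherian scheme of dimension at most one is the union of two affine opens. -/
theorem exists_affine_cover (Z : Scheme.{u}) [IsNoetherian Z] [Z.IsSeparated]
    (hdim : topologicalKrullDim Z ≤ 1) :
    ∃ U V : Z.Opens, IsAffineOpen U ∧ IsAffineOpen V ∧ U ⊔ V = ⊤ ∧ IsAffineOpen (U ⊓ V) := by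
  obtain ⟨U, hU, -, hfin, -⟩ := Etcore.CurveTop.exists_affine_compl_finite Z hdim
  obtain ⟨V, hV, hVs⟩ := Groth.Agent.S0217.result Z (fun U _ => by
      have : NoetherianSpace (U : Set Z) := NoetherianSpace.set _
      exact NoetherianSpace.finite_irreducibleComponents) hfin.toFinset
      (fun y _ => ⟨inferInstance, (CurvesA.DimOne.ringKrullDim_stalk_le Z y).trans hdim⟩)
  refine ⟨U, V, hU, hV, ?_, hU.inf hV⟩
  rw [eq_top_iff]
  intro x _
  by_cases hx : x ∈ U
  · exact Or.inl hx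
  · exact Or.inr (hVs x (hfin.mem_toFinset.2 hx))

theorem glue_two {X : Scheme.{u}} (U V : X.Opens) (h : U ⊔ V = ⊤) (s : Γ(X, U)) (t : Γ(X, V))
    (hst : X.presheaf.map (homOfLE (inf_le_left : U ⊓ V ≤ U)).op s =
      X.presheaf.map (homOfLE (inf_le_right : U ⊓ V ≤ V)).op t) :
    ∃ r : Γ(X, ⊤), X.presheaf.map (homOfLE (le_top : U ≤ ⊤)).op r = s ∧
      X.presheaf.map (homOfLE (le_top : V ≤ ⊤)).op r = t := by
  obtain ⟨r, h1, h2⟩ := CurvesB.PointSection.exists_glue U V h s t (by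
    intro x hU hV
    have e1 := X.presheaf.germ_res_apply (homOfLE (inf_le_left : U ⊓ V ≤ U)) x ⟨hU, hV⟩ s
    have e2 := X.presheaf.germ_res_apply (homOfLE (inf_le_right : U ⊓ V ≤ V)) x ⟨hU, hV⟩ t
    rw [← e1, ← e2]
    exact congrArg _ hst)
  refine ⟨r, ?_, ?_⟩
  · apply TopCat.Presheaf.section_ext X.sheaf
    intro x hx
    refine Eq.trans ?_ (h1 x hx)
    exact X.presheaf.germ_res_apply (homOfLE (le_top : U ≤ ⊤)) x hx r
  · apply TopCat.Presheaf.section_ext X.sheaf
    intro x hx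
    refine Eq.trans ?_ (h2 x hx)
    exact X.presheaf.germ_res_apply (homOfLE (le_top : V ≤ ⊤)) x hx r

theorem eq_zero_of_cover {X : Scheme.{u}} (U V : X.Opens) (h : U ⊔ V = ⊤) (r : Γ(X, ⊤))
    (h1 : X.presheaf.map (homOfLE (le_top : U ≤ ⊤)).op r = 0)
    (h2 : X.presheaf.map (homOfLE (le_top : V ≤ ⊤)).op r = 0) : r = 0 := by
  apply TopCat.Presheaf.section_ext X.sheaf
  intro x _
  have hx : x ∈ U ⊔ V := by rw [h]; trivial
  rcases hx with hx | hx
  · refine (X.presheaf.germ_res_apply (homOfLE (le_top : U ≤ ⊤)) x hx r).symm.trans ?_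
    rw [h1, map_zero]
    exact (map_zero (X.presheaf.germ ⊤ x trivial).hom).symm
  · refine (X.presheaf.germ_res_apply (homOfLE (le_top : V ≤ ⊤)) x hx r).symm.trans ?_
    rw [h2, map_zero]
    exact (map_zero (X.presheaf.germ ⊤ x trivial).hom).symm

theorem isField_Γ_Spec (k : Type u) [Field k] : IsField Γ(Spec (CommRingCat.of k), ⊤) :=
  ((Scheme.ΓSpecIso (CommRingCat.of k)).commRingCatIsoToRingEquiv.toMulEquiv).isField (Field.toIsField k)

/-- a basis of the functions on `Spec K` over those on `Spec k`. -/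
theorem exists_basis {k K : Type u} [Field k] [Field K] (φ : Spec (CommRingCat.of K) ⟶ Spec (CommRingCat.of k)) :
    ∃ ι : Type u, Nonempty (letI := φ.appTop.hom.toAlgebra;
      Module.Basis ι Γ(Spec (CommRingCat.of k), ⊤) Γ(Spec (CommRingCat.of K), ⊤)) := by
  let _ : Field Γ(Spec (CommRingCat.of k), ⊤) := (isField_Γ_Spec k).toField
  let _ := φ.appTop.hom.toAlgebra
  exact ⟨_, ⟨Module.Basis.ofVectorSpace Γ(Spec (CommRingCat.of k), ⊤) Γ(Spec (CommRingCat.of K), ⊤)⟩⟩

section Coord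

variable {k K : Type u} [Field k] [Field K] {C W : Scheme.{u}} {f : C ⟶ Spec (CommRingCat.of k)}
  {q : W ⟶ Spec (CommRingCat.of K)} {g : W ⟶ C} {φ : Spec (CommRingCat.of K) ⟶ Spec (CommRingCat.of k)}

/-- A non-zero global function upstairs has a non-zero coordinate. -/
theorem exists_coord (H : IsPullback g q f φ) {ι : Type u}
    (b : letI := φ.appTop.hom.toAlgebra;
      Module.Basis ι Γ(Spec (CommRingCat.of k), ⊤) Γ(Spec (CommRingCat.of K), ⊤))
    (U V : C.Opens) (hcov : U ⊔ V = ⊤) (hU : IsAffineOpen U) (hV : IsAffineOpen V)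
    (hUV : IsAffineOpen (U ⊓ V)) (n : Γ(W, ⊤)) (hn : n ≠ 0) :
    ∃ (i : ι) (c : Γ(C, ⊤)) (a : ι →₀ Γ(C, U ⊓ V)), c ≠ 0 ∧
      W.presheaf.map (homOfLE (le_top : g ⁻¹ᵁ (U ⊓ V) ≤ ⊤)).op n = comb g q b (U ⊓ V) a ∧
      C.presheaf.map (homOfLE (le_top : U ⊓ V ≤ ⊤)).op c = a i := by
  obtain ⟨aU, haU⟩ := (comb_bijective H b hU).2 (W.presheaf.map (homOfLE (le_top : g ⁻¹ᵁ U ≤ ⊤)).op n)
  obtain ⟨aV, haV⟩ := (comb_bijective H b hV).2 (W.presheaf.map (homOfLE (le_top : g ⁻¹ᵁ V ≤ ⊤)).op n)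
  have hres : ∀ {A B : W.Opens} (h : B ≤ A) (h' : A ≤ ⊤) (x : Γ(W, ⊤)),
      W.presheaf.map (homOfLE h).op (W.presheaf.map (homOfLE h').op x) =
        W.presheaf.map (homOfLE (h.trans h')).op x := by
    intro A B h h' x
    rw [← CommRingCat.comp_apply, ← Functor.map_comp]
    rfl
  have e1 : comb g q b (U ⊓ V) (resC inf_le_left aU) =
      W.presheaf.map (homOfLE (le_top : g ⁻¹ᵁ (U ⊓ V) ≤ ⊤)).op n := by
    rw [← comb_res, haU]
    exact hres _ _ _
  have e2 : comb g q b (U ⊓ V) (resC inf_le_right aV) =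
      W.presheaf.map (homOfLE (le_top : g ⁻¹ᵁ (U ⊓ V) ≤ ⊤)).op n := by
    rw [← comb_res, haV]
    exact hres _ _ _
  have e3 : resC (inf_le_left : U ⊓ V ≤ U) aU = resC (inf_le_right : U ⊓ V ≤ V) aV :=
    (comb_bijective H b hUV).1 (e1.trans e2.symm)
  -- some coordinate is nonzero
  have h0 : ∃ i, aU i ≠ 0 ∨ aV i ≠ 0 := by
    by_contra hcon
    push Not at hcon
    apply hn
    apply eq_zero_of_cover (g ⁻¹ᵁ U) (g ⁻¹ᵁ V) (by
      rw [← Scheme.Hom.preimage_sup, hcov, Scheme.Hom.preimage_top])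
    · rw [← haU, show aU = 0 from Finsupp.ext fun i => (hcon i).1]
      unfold comb
      rw [Finsupp.sum_zero_index]
    · rw [← haV, show aV = 0 from Finsupp.ext fun i => (hcon i).2]
      unfold comb
      rw [Finsupp.sum_zero_index]
  obtain ⟨i, hi⟩ := h0
  obtain ⟨c, hc1, hc2⟩ := glue_two U V hcov (aU i) (aV i) (by
    have := DFunLike.congr_fun e3 i
    rwa [resC_apply, resC_apply] at this)
  refine ⟨i, c, resC inf_le_left aU, ?_, e1.symm, ?_⟩
  · rintro rfl
    rw [map_zero] at hc1 hc2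
    rcases hi with hi | hi
    · exact hi hc1.symm
    · exact hi hc2.symm
  · rw [resC_apply, ← hc1, ← CommRingCat.comp_apply, ← Functor.map_comp]
    rfl

end Coord

theorem h1_eq_zero (k K : Type u) [Field k] [Field K] [Algebra k K] (C : Scheme.{u})
    (f : C ⟶ Spec (CommRingCat.of k)) [IsProper f] [IsIntegral C] (hdim : topologicalKrullDim C ≤ 1)
    (D : Scheme.{u}) (ρ : D ⟶ pullback f (Spec.map (CommRingCat.ofHom (algebraMap k K))))
    [IsClosedImmersion ρ] [AlgebraicGeometry.IsReduced D]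
    (he : H217.H1Red.h1 k C f ≤ H217.H1Red.h1 K D (ρ ≫ pullback.snd _ _))
    (hnr : ¬ _root_.IsReduced Γ(pullback f (Spec.map (CommRingCat.ofHom (algebraMap k K))), ⊤)) :
    H217.H1Red.h1 k C f = 0 := by
  let φ := Spec.map (CommRingCat.ofHom (algebraMap k K))
  let W := pullback f φ
  let g : W ⟶ C := pullback.fst f φ
  let q : W ⟶ Spec (CommRingCat.of K) := pullback.snd f φ
  have H : IsPullback g q f φ := IsPullback.of_hasPullback f φ
  have hNoeth : IsNoetherian C := by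
    have : LocallyOfFiniteType f := inferInstance
    have : IsLocallyNoetherian C := LocallyOfFiniteType.isLocallyNoetherian f
    have : CompactSpace C := QuasiCompact.compactSpace_of_compactSpace f
    exact {}
  have hsep : C.IsSeparated := by
    have h : IsSeparated (terminal.from C) := by
      rw [← terminal.comp_from f]
      infer_instance
    exact ⟨h⟩
  obtain ⟨U, V, hU, hV, hcov, hUV⟩ := exists_affine_cover C hdim
  have hφ : IsAffineHom φ := inferInstanceAs (IsAffineHom (Spec.map (CommRingCat.ofHom (algebraMap k K))))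
  have hg : IsAffineHom g := MorphismProperty.pullback_fst f φ hφ
  obtain ⟨ι, ⟨b⟩⟩ := exists_basis φ
  rw [isReduced_iff] at hnr
  push Not at hnr
  obtain ⟨n, hnil, hn⟩ := hnr
  obtain ⟨i, c, a, hc, hna, hca⟩ := exists_coord H b U V hcov hU hV hUV n hn
  have hF : IsField Γ(C, ⊤) := isField_of_universallyClosed k f
  obtain ⟨c', hcc'⟩ := hF.mul_inv_cancel hc
  let _ : C.Over (Spec (CommRingCat.of k)) := ⟨f⟩
  let _ : W.Over (Spec (CommRingCat.of K)) := ⟨q⟩
  let _ : D.Over (Spec (CommRingCat.of K)) := ⟨ρ ≫ q⟩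
  have : IsProper (W ↘ Spec (CommRingCat.of K)) := (inferInstance : IsProper q)
  have hfin : FiniteDimensional K (Coh.HH W (Coh.structureModule W) 1) :=
    Groth.Agent.S0002.result K W _ (CurvesC.UnitCoh.isCoh_unit W) 1
  have hcovW : g ⁻¹ᵁ U ⊔ g ⁻¹ᵁ V = ⊤ := by
    rw [← Scheme.Hom.preimage_sup, hcov, Scheme.Hom.preimage_top]
  have hle : Module.finrank K (Coh.HH W (Coh.structureModule W) 1) ≤
      Module.finrank K (Coh.HH D (Coh.structureModule D) 1) :=
    (H217.H1Red.h1_bc k K C f).trans_le he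
  refine NilSplit.finrank_H1_eq_zero k hcov hU hV fun w => ?_
  -- the nilpotent function
  let h : Γ(C, U ⊓ V) := w * C.presheaf.map (homOfLE (le_top : U ⊓ V ≤ ⊤)).op c'
  let x : Γ(W, g ⁻¹ᵁ (U ⊓ V)) := g.app (U ⊓ V) h * W.presheaf.map (homOfLE (le_top : g ⁻¹ᵁ (U ⊓ V) ≤ ⊤)).op n
  have hx : IsNilpotent x := (Commute.all _ _).isNilpotent_mul_left (hnil.map _)
  have hρx : ρ.app (g ⁻¹ᵁ (U ⊓ V)) x = 0 := (hx.map (ρ.app (g ⁻¹ᵁ (U ⊓ V))).hom).eq_zero
  obtain ⟨y, z, hyz⟩ := NilSplit.exists_sub_of_app_eq_zero K ρ rfl (U := g ⁻¹ᵁ U) (V := g ⁻¹ᵁ V)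
    hcovW (hU.preimage g) (hV.preimage g) (hUV.preimage g) hle x hρx
  obtain ⟨α, rfl⟩ := (comb_bijective H b hU).2 y
  obtain ⟨β, rfl⟩ := (comb_bijective H b hV).2 z
  refine ⟨α i, β i, ?_⟩
  have e1 : comb g q b (U ⊓ V) (resC inf_le_left α - resC inf_le_right β) =
      comb g q b (U ⊓ V) (mulC h a) := by
    rw [comb_sub, ← comb_res, ← comb_res, ← comb_mul, ← hna]
    exact hyz
  have e2 := DFunLike.congr_fun ((comb_bijective H b hUV).1 e1) i
  change C.presheaf.map (homOfLE (inf_le_left : U ⊓ V ≤ U)).op (α i) -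
    C.presheaf.map (homOfLE (inf_le_right : U ⊓ V ≤ V)).op (β i) = h * a i at e2
  rw [e2, ← hca]
  change w * C.presheaf.map (homOfLE (le_top : U ⊓ V ≤ ⊤)).op c' *
    C.presheaf.map (homOfLE (le_top : U ⊓ V ≤ ⊤)).op c = w
  rw [mul_assoc, ← map_mul, mul_comm c' c, hcc', map_one, mul_one]

end Groth.Agent.Models.H56.Insep
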