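import Groth.Agent.S2185
import Groth.Agent.S2177

/-!
# Numerical types: the trick `g_i ↦ g_i + 1`, and the spanning tree inequality

* `card_torsion_le`: for a minimal numerical type of genus `g ≥ 1` with an index `i` such that
  `m_i = w_i = 1` and a prime `ℓ > 768 (g + 1)`, the `ℓ`-torsion of `Pic(T)` has at most
  `ℓ ^ topGenus` elements.
* `topGenus_add_le`: if some `w_i = 1` then
  `topGenus + Σ w_i g_i ≤ 1 + Σ w_i (g_i - 1) + Σ_{i < j} a_ij`.
-/

set_option autoImplicit false
open Finset
open Models Models.NumericalType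

namespace Groth.Agent.Models.H56.Num

variable {n : ℕ} (T : Models.NumericalType n)

/-- add one to the genus of one index. -/
def bump (i : Fin n) : Models.NumericalType n where
  m := T.m
  a := T.a
  w := T.w
  g := Function.update T.g i (T.g i + 1)
  pos := T.pos
  m_pos := T.m_pos
  w_pos := T.w_pos
  g_nonneg := by
    intro j
    by_cases h : j = i
    · subst h
      rw [Function.update_self]
      have := T.g_nonneg j
      omega
    · rw [Function.update_of_ne h]
      exact T.g_nonneg j
  symm := T.symm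
  offDiag_nonneg := T.offDiag_nonneg
  connected := T.connected
  mulVec_m := T.mulVec_m
  w_dvd := T.w_dvd

theorem bump_genus (i : Fin n) (hm : T.m i = 1) (hw : T.w i = 1) :
    (bump T i).genus = T.genus + 1 := by
  have h : ∑ j, T.m j * T.w j * (Function.update T.g i (T.g i + 1) j - 1) =
      (∑ j, T.m j * T.w j * (T.g j - 1)) + 1 := by
    have h1 : ∀ j, T.m j * T.w j * (Function.update T.g i (T.g i + 1) j - 1) =
        T.m j * T.w j * (T.g j - 1) + if j = i then 1 else 0 := by
      intro j
      by_cases h : j = i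
      · subst h
        rw [Function.update_self, if_pos rfl, hm, hw]
        ring
      · rw [Function.update_of_ne h, if_neg h, add_zero]
    rw [Finset.sum_congr rfl fun j _ => h1 j, Finset.sum_add_distrib]
    simp
  change 1 + (∑ j, T.m j * T.w j * (Function.update T.g i (T.g i + 1) j - 1)) -
    (∑ j, T.m j * T.a j j) / 2 = _
  rw [h]
  unfold NumericalType.genus
  ring

theorem bump_minimal (i : Fin n) (hT : T.IsMinimal) : (bump T i).IsMinimal := by
  rintro j ⟨h1, h2⟩
  change Function.update T.g i (T.g i + 1) j = 0 at h1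
  by_cases h : j = i
  · subst h
    rw [Function.update_self] at h1
    have := T.g_nonneg j
    omega
  · rw [Function.update_of_ne h] at h1
    exact hT j ⟨h1, h2⟩

/-- the bound for the torsion of the Picard group, valid for all positive genera. -/
theorem card_torsion_le (hT : T.IsMinimal) (hg : 1 ≤ T.genus) (i : Fin n) (hm : T.m i = 1)
    (hw : T.w i = 1) (ℓ : ℕ) (hℓ : ℓ.Prime) (hℓg : 768 * (T.genus + 1) < ℓ) :
    Nat.card (Submodule.torsionBy ℤ T.Pic (ℓ : ℤ)) ≤ ℓ ^ T.topGenus.toNat := by
  have h1 := bump_genus T i hm hw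
  exact ((Groth.Agent.S2185.result (bump T i) (by rw [h1]; omega) ℓ hℓ (by rw [h1]; exact hℓg)).2
    (bump_minimal T i hT)).1

/-- the edges of the dual graph. -/
def edges : Finset (Fin n × Fin n) := univ.filter fun p : Fin n × Fin n => p.1 < p.2 ∧ 0 < T.a p.1 p.2

theorem edgeCount_eq : T.edgeCount = (edges T).card := rfl

theorem a_comm (i j : Fin n) : T.a i j = T.a j i := T.symm.apply j i

theorem exists_tree_aux (i₀ : Fin n) (k : ℕ) (hk : 1 ≤ k) (hkn : k ≤ n) :
    ∃ S : Finset (Fin n), i₀ ∈ S ∧ S.card = k ∧ ∃ e : Fin n → Fin n × Fin n,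
      (∀ j ∈ S, j ≠ i₀ → e j ∈ edges T ∧ (e j).1 ∈ S ∧ (e j).2 ∈ S ∧ (j = (e j).1 ∨ j = (e j).2)) ∧
      ∀ j ∈ S, ∀ j' ∈ S, j ≠ i₀ → j' ≠ i₀ → e j = e j' → j = j' := by
  classical
  induction k, hk using Nat.le_induction with
  | base =>
    refine ⟨{i₀}, by simp, by simp, fun _ => (i₀, i₀), ?_, ?_⟩
    · intro j hj hj'
      exact absurd (Finset.mem_singleton.mp hj) hj'
    · intro j hj j' _ hj' _ _
      exact absurd (Finset.mem_singleton.mp hj) hj'
  | succ k hk ih =>
    obtain ⟨S, hi₀, hS, e, he, hinj⟩ := ih (by omega)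
    have hne : S ≠ univ := by
      rintro rfl
      rw [Finset.card_univ, Fintype.card_fin] at hS
      omega
    obtain ⟨i, hi, j, hj, hij⟩ := T.connected S ⟨i₀, hi₀⟩ hne
    have hne' : i ≠ j := fun h => hj (h ▸ hi)
    have hpos : 0 < T.a i j := lt_of_le_of_ne (T.offDiag_nonneg i j hne') (Ne.symm hij)
    let ed : Fin n × Fin n := if i < j then (i, j) else (j, i)
    have hed : ed ∈ edges T := by
      rw [edges, Finset.mem_filter]
      refine ⟨mem_univ _, ?_⟩
      by_cases h : i < j
      · simp only [ed, if_pos h]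
        exact ⟨h, hpos⟩
      · simp only [ed, if_neg h]
        refine ⟨lt_of_le_of_ne (not_lt.mp h) (Ne.symm hne'), ?_⟩
        rw [a_comm]
        exact hpos
    have hed1 : ed.1 = i ∨ ed.1 = j := by
      by_cases h : i < j
      · left; simp only [ed, if_pos h]
      · right; simp only [ed, if_neg h]
    have hed2 : ed.2 = i ∨ ed.2 = j := by
      by_cases h : i < j
      · right; simp only [ed, if_pos h]
      · left; simp only [ed, if_neg h]
    have hedj : j = ed.1 ∨ j = ed.2 := by
      by_cases h : i < j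
      · right; simp only [ed, if_pos h]
      · left; simp only [ed, if_neg h]
    have hej : ∀ x ∈ S, Function.update e j ed x = e x := fun x hx =>
      Function.update_of_ne (fun h : x = j => hj (by rw [← h]; exact hx)) _ _
    have hejj : Function.update e j ed j = ed := Function.update_self _ _ _
    have hS' : ∀ x ∈ insert j S, x = j ∨ x ∈ S := fun x hx => Finset.mem_insert.mp hx
    have hjS : j ∈ insert j S := Finset.mem_insert_self j S
    have hSS : ∀ x ∈ S, x ∈ insert j S := fun x hx => Finset.mem_insert_of_mem hx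
    have hnot : ∀ x ∈ S, x ≠ i₀ → ed ≠ e x := by
      intro x hx hx' h
      obtain ⟨-, h1, h2, -⟩ := he x hx hx'
      rcases hedj with h3 | h3
      · exact hj (by rw [h3, h]; exact h1)
      · exact hj (by rw [h3, h]; exact h2)
    refine ⟨insert j S, hSS _ hi₀, by rw [Finset.card_insert_of_notMem hj, hS],
      Function.update e j ed, ?_, ?_⟩
    · intro x hx hx'
      rcases hS' x hx with rfl | hxS
      · rw [hejj]
        refine ⟨hed, ?_, ?_, hedj⟩
        · rcases hed1 with h | h
          · rw [h]; exact hSS _ hi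
          · rw [h]; exact hjS
        · rcases hed2 with h | h
          · rw [h]; exact hSS _ hi
          · rw [h]; exact hjS
      · rw [hej x hxS]
        obtain ⟨h1, h2, h3, h4⟩ := he x hxS hx'
        exact ⟨h1, hSS _ h2, hSS _ h3, h4⟩
    · intro x hx y hy hx' hy' hxy
      rcases hS' x hx with rfl | hxS
      · rcases hS' y hy with rfl | hyS
        · rfl
        · rw [hejj, hej y hyS] at hxy
          exact absurd hxy (hnot y hyS hy')
      · rcases hS' y hy with rfl | hyS
        · rw [hejj, hej x hxS] at hxy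
          exact absurd hxy.symm (hnot x hxS hx')
        · rw [hej x hxS, hej y hyS] at hxy
          exact hinj x hxS y hyS hx' hy' hxy

theorem exists_tree (i₀ : Fin n) : ∃ e : Fin n → Fin n × Fin n,
      (∀ j, j ≠ i₀ → e j ∈ edges T ∧ (j = (e j).1 ∨ j = (e j).2)) ∧
      ∀ j j', j ≠ i₀ → j' ≠ i₀ → e j = e j' → j = j' := by
  obtain ⟨S, -, hS, e, he, hinj⟩ := exists_tree_aux T i₀ n T.pos le_rfl
  have hu : S = univ := by
    apply Finset.eq_univ_of_card
    rw [hS, Fintype.card_fin]
  subst hu
  exact ⟨e, fun j hj => ⟨(he j (mem_univ _) hj).1, (he j (mem_univ _) hj).2.2.2⟩,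
    fun j j' h1 h2 h3 => hinj j (mem_univ _) j' (mem_univ _) h1 h2 h3⟩

/-- the number of edges is at least `n - 1`, and the sum of the `a_ij` over the edges is large. -/
theorem sum_edges_ge (i₀ : Fin n) (hw : T.w i₀ = 1) :
    (T.edgeCount : ℤ) + ∑ j, (T.w j - 1) ≤ ∑ p ∈ edges T, T.a p.1 p.2 := by
  classical
  obtain ⟨e, he, hinj⟩ := exists_tree T i₀
  have h1 : ∑ j, (T.w j - 1) = ∑ j ∈ univ.erase i₀, (T.w j - 1) := by
    rw [← Finset.add_sum_erase univ (fun j => T.w j - 1) (mem_univ i₀), hw]
    ring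
  have h2 : ∑ j ∈ univ.erase i₀, (T.w j - 1) ≤
      ∑ j ∈ univ.erase i₀, (T.a (e j).1 (e j).2 - 1) := by
    apply Finset.sum_le_sum
    intro j hj
    have hj' : j ≠ i₀ := Finset.ne_of_mem_erase hj
    obtain ⟨h3, h4⟩ := he j hj'
    rw [edges, Finset.mem_filter] at h3
    have h5 : T.w j ∣ T.a (e j).1 (e j).2 := by
      rcases h4 with h | h
      · have := T.w_dvd j (e j).2
        rwa [← h] 
      · have := T.w_dvd j (e j).1
        rw [← h, a_comm]
        exact this
    have := Int.le_of_dvd h3.2.2 h5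
    omega
  have h3 : ∑ j ∈ univ.erase i₀, (T.a (e j).1 (e j).2 - 1) =
      ∑ p ∈ (univ.erase i₀).image e, (T.a p.1 p.2 - 1) := by
    rw [Finset.sum_image]
    intro x hx y hy hxy
    exact hinj x y (Finset.ne_of_mem_erase hx) (Finset.ne_of_mem_erase hy) hxy
  have h4 : ∑ p ∈ (univ.erase i₀).image e, (T.a p.1 p.2 - 1) ≤ ∑ p ∈ edges T, (T.a p.1 p.2 - 1) := by
    apply Finset.sum_le_sum_of_subset_of_nonneg
    · intro p hp
      obtain ⟨j, hj, rfl⟩ := Finset.mem_image.mp hp
      exact (he j (Finset.ne_of_mem_erase hj)).1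
    · intro p hp _
      rw [edges, Finset.mem_filter] at hp
      have := hp.2.2
      omega
  rw [Finset.sum_sub_distrib (s := edges T), Finset.sum_const, nsmul_eq_mul, mul_one] at h4
  rw [edgeCount_eq, h1]
  linarith

theorem edgeCount_ge : n ≤ T.edgeCount + 1 := by
  classical
  let i₀ : Fin n := ⟨0, T.pos⟩
  obtain ⟨e, he, hinj⟩ := exists_tree T i₀
  have h1 : ((univ.erase i₀).image e).card = n - 1 := by
    rw [Finset.card_image_of_injOn, Finset.card_erase_of_mem (mem_univ _), Finset.card_univ,
      Fintype.card_fin]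
    intro x hx y hy hxy
    exact hinj x y (Finset.ne_of_mem_erase hx) (Finset.ne_of_mem_erase hy) hxy
  have h2 : ((univ.erase i₀).image e).card ≤ (edges T).card := by
    apply Finset.card_le_card
    intro p hp
    obtain ⟨j, hj, rfl⟩ := Finset.mem_image.mp hp
    exact (he j (Finset.ne_of_mem_erase hj)).1
  rw [edgeCount_eq]
  omega

theorem topGenus_nonneg : 0 ≤ T.topGenus := by
  have := edgeCount_ge T
  unfold NumericalType.topGenus
  omega

/-- the sum of all `a_ij`, `i < j`, is the sum over the edges. -/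
theorem sum_edges_eq : ∑ p ∈ edges T, T.a p.1 p.2 =
    ∑ p ∈ univ.filter (fun p : Fin n × Fin n => p.1 < p.2), T.a p.1 p.2 := by
  classical
  apply Finset.sum_subset
  · intro p hp
    rw [edges, Finset.mem_filter] at hp
    rw [Finset.mem_filter]
    exact ⟨hp.1, hp.2.1⟩
  · intro p hp hp'
    rw [Finset.mem_filter] at hp
    have h1 : ¬ 0 < T.a p.1 p.2 := fun h => hp' (by
      rw [edges, Finset.mem_filter]
      exact ⟨mem_univ _, hp.2, h⟩)
    have h2 := T.offDiag_nonneg p.1 p.2 hp.2.ne
    omega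

/-- `topGenus + Σ w_i g_i ≤ 1 + Σ w_i (g_i - 1) + Σ_{i < j} a_ij` as soon as some `w_i = 1`. -/
theorem topGenus_add_le (i₀ : Fin n) (hw : T.w i₀ = 1) :
    T.topGenus + ∑ i, T.w i * T.g i ≤ 1 + ∑ i, T.w i * (T.g i - 1) +
      ∑ p ∈ univ.filter (fun p : Fin n × Fin n => p.1 < p.2), T.a p.1 p.2 := by
  have h1 := sum_edges_ge T i₀ hw
  rw [sum_edges_eq] at h1
  have h2 : ∑ i, T.w i * (T.g i - 1) = ∑ i, T.w i * T.g i - ∑ i, T.w i := by
    rw [← Finset.sum_sub_distrib]
    exact Finset.sum_congr rfl fun i _ => by ring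
  rw [Finset.sum_sub_distrib] at h1
  simp only [Finset.sum_const, Finset.card_univ, Fintype.card_fin, nsmul_eq_mul, mul_one] at h1
  unfold NumericalType.topGenus
  rw [h2]
  linarith

end Groth.Agent.Models.H56.Num
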