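import Groth.Agent.Models.H56.Num

/-!
# Numerical types: the equality case of the spanning tree inequality

`T` a numerical type with all `m_i = 1`, some `w_{i₀} = 1` and `topGenus + Σ w_i g_i = genus`. Then every
`i ≠ i₀` has a neighbour `j` with `a_ij = w_i`, and if `T` is minimal there is no non-empty set `Bad` of
indices with `w_i ≠ 1`, `g_i = 0` which is stable under passing from `i` to a neighbour `j` with `a_ij = w_j`.
-/

set_option autoImplicit false
open Finset
open Models Models.NumericalType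

namespace Groth.Agent.Models.H56.Num2

open Groth.Agent.Models.H56.Num

variable {n : ℕ} (T : Models.NumericalType n)

theorem exists_parent_aux (i₀ : Fin n) (k : ℕ) (hk : 1 ≤ k) (hkn : k ≤ n) :
    ∃ S : Finset (Fin n), i₀ ∈ S ∧ S.card = k ∧ ∃ (p : Fin n → Fin n) (r : Fin n → ℕ),
      ∀ j ∈ S, r j < k ∧ (j ≠ i₀ → p j ∈ S ∧ 0 < T.a (p j) j ∧ r (p j) < r j) := by
  classical
  induction k, hk using Nat.le_induction with
  | base =>
    refine ⟨{i₀}, by simp, by simp, fun _ => i₀, fun _ => 0, ?_⟩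
    intro j hj
    exact ⟨Nat.zero_lt_one, fun hj' => absurd (Finset.mem_singleton.mp hj) hj'⟩
  | succ k hk ih =>
    obtain ⟨S, hi₀, hS, p, r, h⟩ := ih (by omega)
    have hne : S ≠ univ := by
      rintro rfl
      rw [Finset.card_univ, Fintype.card_fin] at hS
      omega
    obtain ⟨i, hi, j, hj, hij⟩ := T.connected S ⟨i₀, hi₀⟩ hne
    have hne' : i ≠ j := fun h => hj (h ▸ hi)
    have hpos : 0 < T.a i j := lt_of_le_of_ne (T.offDiag_nonneg i j hne') (Ne.symm hij)
    have hpS : ∀ x ∈ S, Function.update p j i x = p x := fun x hx =>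
      Function.update_of_ne (fun h : x = j => hj (by rw [← h]; exact hx)) _ _
    have hrS : ∀ x ∈ S, Function.update r j k x = r x := fun x hx =>
      Function.update_of_ne (fun h : x = j => hj (by rw [← h]; exact hx)) _ _
    have hpj : Function.update p j i j = i := Function.update_self _ _ _
    have hrj : Function.update r j k j = k := Function.update_self _ _ _
    refine ⟨insert j S, Finset.mem_insert_of_mem hi₀, by rw [Finset.card_insert_of_notMem hj, hS],
      Function.update p j i, Function.update r j k, ?_⟩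
    intro x hx
    rcases Finset.mem_insert.mp hx with rfl | hxS
    · rw [hpj, hrj, hrS i hi]
      exact ⟨Nat.lt_succ_self k, fun _ => ⟨Finset.mem_insert_of_mem hi, hpos, (h i hi).1⟩⟩
    · rw [hrS x hxS, hpS x hxS]
      refine ⟨lt_trans (h x hxS).1 (Nat.lt_succ_self k), fun hx0 => ?_⟩
      obtain ⟨h1, h2, h3⟩ := (h x hxS).2 hx0
      rw [hrS _ h1]
      exact ⟨Finset.mem_insert_of_mem h1, h2, h3⟩

/-- a rooted spanning tree. -/
theorem exists_parent (i₀ : Fin n) : ∃ (p : Fin n → Fin n) (r : Fin n → ℕ),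
    ∀ j, j ≠ i₀ → 0 < T.a (p j) j ∧ r (p j) < r j := by
  obtain ⟨S, -, hS, p, r, h⟩ := exists_parent_aux T i₀ n T.pos le_rfl
  have hu : S = univ := by
    apply Finset.eq_univ_of_card
    rw [hS, Fintype.card_fin]
  subst hu
  exact ⟨p, r, fun j hj => ((h j (mem_univ _)).2 hj).2⟩

/-- the edge from `j` to its parent. -/
def ed (p : Fin n → Fin n) (j : Fin n) : Fin n × Fin n := if p j < j then (p j, j) else (j, p j)

theorem a_ed (p : Fin n → Fin n) (j : Fin n) : T.a (ed p j).1 (ed p j).2 = T.a (p j) j := by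
  unfold ed
  split_ifs with h
  · rfl
  · exact a_comm T _ _

theorem ed_mem {p : Fin n → Fin n} {r : Fin n → ℕ} {i₀ : Fin n}
    (h : ∀ j, j ≠ i₀ → 0 < T.a (p j) j ∧ r (p j) < r j) (j : Fin n) (hj : j ≠ i₀) :
    ed p j ∈ edges T := by
  obtain ⟨h1, h2⟩ := h j hj
  have hne : p j ≠ j := fun h => by
    rw [h] at h2
    exact lt_irrefl _ h2
  rw [edges, Finset.mem_filter]
  refine ⟨mem_univ _, ?_, ?_⟩
  · unfold ed
    split_ifs with h3
    · exact h3
    · exact lt_of_le_of_ne (not_lt.mp h3) (Ne.symm hne)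
  · rw [a_ed]
    exact h1

theorem ed_inj {p : Fin n → Fin n} {r : Fin n → ℕ} {i₀ : Fin n}
    (h : ∀ j, j ≠ i₀ → 0 < T.a (p j) j ∧ r (p j) < r j) (j j' : Fin n) (hj : j ≠ i₀) (hj' : j' ≠ i₀)
    (he : ed p j = ed p j') : j = j' := by
  by_contra hne
  have h1 := (h j hj).2
  have h2 := (h j' hj').2
  have key : p j = j' ∧ p j' = j := by
    unfold ed at he
    split_ifs at he with h3 h4 h4
    · exact absurd (congrArg Prod.snd he) hne
    · exact ⟨congrArg Prod.fst he, (congrArg Prod.snd he).symm⟩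
    · exact ⟨congrArg Prod.snd he, (congrArg Prod.fst he).symm⟩
    · exact absurd (congrArg Prod.fst he) hne
  rw [key.1] at h1
  rw [key.2] at h2
  omega

theorem ed_cases {p : Fin n → Fin n} {i j : Fin n} {x : Fin n}
    (hij : ed p x = (i, j) ∨ ed p x = (j, i)) : (x = i ∧ p x = j) ∨ (x = j ∧ p x = i) := by
  unfold ed at hij
  split_ifs at hij with h
  · rcases hij with h1 | h1
    · exact Or.inr ⟨congrArg Prod.snd h1, congrArg Prod.fst h1⟩
    · exact Or.inl ⟨congrArg Prod.snd h1, congrArg Prod.fst h1⟩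
  · rcases hij with h1 | h1
    · exact Or.inl ⟨congrArg Prod.fst h1, congrArg Prod.snd h1⟩
    · exact Or.inr ⟨congrArg Prod.fst h1, congrArg Prod.snd h1⟩

/-- equality case of the spanning tree inequality. -/
theorem tree_eq {p : Fin n → Fin n} {r : Fin n → ℕ} {i₀ : Fin n} (hw : T.w i₀ = 1)
    (h : ∀ j, j ≠ i₀ → 0 < T.a (p j) j ∧ r (p j) < r j)
    (hle : ∑ q ∈ edges T, T.a q.1 q.2 ≤ (T.edgeCount : ℤ) + ∑ j, (T.w j - 1)) :
    (∀ j, j ≠ i₀ → T.a (p j) j = T.w j) ∧
      ∀ q ∈ edges T, (∀ j, j ≠ i₀ → q ≠ ed p j) → T.a q.1 q.2 = 1 := by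
  classical
  have h1 : ∑ j, (T.w j - 1) = ∑ j ∈ univ.erase i₀, (T.w j - 1) := by
    rw [← Finset.add_sum_erase univ (fun j => T.w j - 1) (mem_univ i₀), hw]
    ring
  have hdvd : ∀ j, j ≠ i₀ → T.w j ≤ T.a (p j) j := fun j hj => by
    refine Int.le_of_dvd (h j hj).1 ?_
    rw [a_comm]
    exact T.w_dvd j (p j)
  have h3 : ∑ j ∈ univ.erase i₀, (T.a (p j) j - 1) =
      ∑ q ∈ (univ.erase i₀).image (ed p), (T.a q.1 q.2 - 1) := by
    rw [Finset.sum_image]
    · exact Finset.sum_congr rfl fun j _ => by rw [a_ed]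
    · intro x hx y hy hxy
      exact ed_inj T h x y (Finset.ne_of_mem_erase hx) (Finset.ne_of_mem_erase hy) hxy
  have hsub : (univ.erase i₀).image (ed p) ⊆ edges T := by
    intro q hq
    obtain ⟨j, hj, rfl⟩ := Finset.mem_image.mp hq
    exact ed_mem T h j (Finset.ne_of_mem_erase hj)
  have hpos : ∀ q ∈ edges T, 0 < T.a q.1 q.2 := fun q hq => by
    rw [edges, Finset.mem_filter] at hq
    exact hq.2.2
  have h4 : ∑ q ∈ (edges T \ (univ.erase i₀).image (ed p)), (T.a q.1 q.2 - 1) +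
      ∑ q ∈ (univ.erase i₀).image (ed p), (T.a q.1 q.2 - 1) = ∑ q ∈ edges T, (T.a q.1 q.2 - 1) :=
    Finset.sum_sdiff hsub
  have h5 : ∑ q ∈ edges T, (T.a q.1 q.2 - 1) = ∑ q ∈ edges T, T.a q.1 q.2 - T.edgeCount := by
    rw [Finset.sum_sub_distrib, Finset.sum_const, nsmul_eq_mul, mul_one, edgeCount_eq]
  have h6 : 0 ≤ ∑ q ∈ (edges T \ (univ.erase i₀).image (ed p)), (T.a q.1 q.2 - 1) :=
    Finset.sum_nonneg fun q hq => by
      have := hpos q (Finset.mem_sdiff.mp hq).1
      omega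
  have h7 : ∑ j ∈ univ.erase i₀, (T.w j - 1) ≤ ∑ j ∈ univ.erase i₀, (T.a (p j) j - 1) :=
    Finset.sum_le_sum fun j hj => by
      have := hdvd j (Finset.ne_of_mem_erase hj)
      omega
  have h8 : ∑ j ∈ univ.erase i₀, (T.a (p j) j - 1) ≤ ∑ j ∈ univ.erase i₀, (T.w j - 1) := by
    linarith
  have h9 : ∑ q ∈ (edges T \ (univ.erase i₀).image (ed p)), (T.a q.1 q.2 - 1) = 0 := by
    linarith
  refine ⟨fun j hj => ?_, fun q hq hq' => ?_⟩
  · have h10 : ∑ j ∈ univ.erase i₀, (T.a (p j) j - T.w j) = 0 := by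
      have e : ∑ j ∈ univ.erase i₀, (T.a (p j) j - T.w j) =
          ∑ j ∈ univ.erase i₀, (T.a (p j) j - 1) - ∑ j ∈ univ.erase i₀, (T.w j - 1) := by
        rw [← Finset.sum_sub_distrib]
        exact Finset.sum_congr rfl fun _ _ => by ring
      rw [e]
      linarith
    have h11 := (Finset.sum_eq_zero_iff_of_nonneg (fun j hj => by
      have := hdvd j (Finset.ne_of_mem_erase hj)
      omega)).mp h10 j (Finset.mem_erase.mpr ⟨hj, mem_univ _⟩)
    omega
  · have h11 := (Finset.sum_eq_zero_iff_of_nonneg (fun q hq => by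
      have := hpos q (Finset.mem_sdiff.mp hq).1
      omega)).mp h9 q (Finset.mem_sdiff.mpr ⟨hq, fun hq'' => by
        obtain ⟨j, hj, hj'⟩ := Finset.mem_image.mp hq''
        exact hq' j (Finset.ne_of_mem_erase hj) hj'.symm⟩)
    omega

/-- with all multiplicities one, the diagonal sum is minus twice the sum over the edges. -/
theorem sum_diag (hm : ∀ i, T.m i = 1) : ∑ i, T.a i i = - (2 * ∑ q ∈ edges T, T.a q.1 q.2) := by
  classical
  have h0 : ∀ i, ∑ j, T.a i j = 0 := by
    intro i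
    have h := congrFun T.mulVec_m i
    change ∑ j, T.a i j * T.m j = 0 at h
    rw [← h]
    exact Finset.sum_congr rfl fun j _ => by rw [hm, mul_one]
  have h1 : ∑ q : Fin n × Fin n, T.a q.1 q.2 = 0 := by
    rw [Fintype.sum_prod_type]
    exact Finset.sum_eq_zero fun i _ => h0 i
  rw [sum_edges_eq]
  let A := univ.filter (fun q : Fin n × Fin n => q.1 < q.2)
  let B := univ.filter (fun q : Fin n × Fin n => q.2 < q.1)
  let D := univ.filter (fun q : Fin n × Fin n => q.1 = q.2)
  have hAB : ∑ q ∈ A, T.a q.1 q.2 = ∑ q ∈ B, T.a q.1 q.2 := by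
    refine Finset.sum_bij (fun q _ => (q.2, q.1)) ?_ ?_ ?_ ?_
    · intro q hq
      exact Finset.mem_filter.mpr ⟨mem_univ _, (Finset.mem_filter.mp hq).2⟩
    · intro q _ q' _ h
      exact Prod.ext (congrArg Prod.snd h) (congrArg Prod.fst h)
    · intro q hq
      exact ⟨(q.2, q.1), Finset.mem_filter.mpr ⟨mem_univ _, (Finset.mem_filter.mp hq).2⟩, rfl⟩
    · intro q _
      exact a_comm T _ _
  have hD : ∑ q ∈ D, T.a q.1 q.2 = ∑ i, T.a i i := by
    refine (Finset.sum_bij (fun i _ => (i, i)) ?_ ?_ ?_ ?_).symm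
    · intro i _
      exact Finset.mem_filter.mpr ⟨mem_univ _, rfl⟩
    · intro i _ j _ h
      exact congrArg Prod.fst h
    · intro q hq
      exact ⟨q.1, mem_univ _, Prod.ext rfl (Finset.mem_filter.mp hq).2⟩
    · intro i _
      rfl
  have h2 : ∑ q : Fin n × Fin n, T.a q.1 q.2 =
      ∑ q ∈ A, T.a q.1 q.2 + ∑ q ∈ B, T.a q.1 q.2 + ∑ q ∈ D, T.a q.1 q.2 := by
    have e1 := Finset.sum_filter_add_sum_filter_not univ (fun q : Fin n × Fin n => q.1 < q.2)
      (fun q => T.a q.1 q.2)
    have e2 := Finset.sum_filter_add_sum_filter_not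
      (univ.filter (fun q : Fin n × Fin n => ¬ q.1 < q.2)) (fun q : Fin n × Fin n => q.2 < q.1)
      (fun q => T.a q.1 q.2)
    have e3 : (univ.filter (fun q : Fin n × Fin n => ¬ q.1 < q.2)).filter
        (fun q : Fin n × Fin n => q.2 < q.1) = B := by
      ext q
      simp only [Finset.mem_filter, mem_univ, true_and, B]
      omega
    have e4 : (univ.filter (fun q : Fin n × Fin n => ¬ q.1 < q.2)).filter
        (fun q : Fin n × Fin n => ¬ q.2 < q.1) = D := by
      ext q
      simp only [Finset.mem_filter, mem_univ, true_and, D]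
      omega
    rw [e3, e4] at e2
    rw [← e1, ← e2]
    ring
  change _ = - (2 * ∑ q ∈ A, T.a q.1 q.2)
  rw [h1, ← hAB, hD] at h2
  linarith

theorem genus_eq (hm : ∀ i, T.m i = 1) :
    T.genus = 1 + ∑ i, T.w i * (T.g i - 1) + ∑ q ∈ edges T, T.a q.1 q.2 := by
  have h1 : ∑ i, T.m i * T.w i * (T.g i - 1) = ∑ i, T.w i * (T.g i - 1) :=
    Finset.sum_congr rfl fun i _ => by rw [hm, one_mul]
  have h2 : ∑ i, T.m i * T.a i i = ∑ i, T.a i i :=
    Finset.sum_congr rfl fun i _ => by rw [hm, one_mul]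
  unfold NumericalType.genus
  rw [h1, h2, sum_diag T hm]
  omega

theorem sum_le_of_genus_le (hm : ∀ i, T.m i = 1) (hle : T.genus ≤ T.topGenus + ∑ i, T.w i * T.g i) :
    ∑ q ∈ edges T, T.a q.1 q.2 ≤ (T.edgeCount : ℤ) + ∑ j, (T.w j - 1) := by
  rw [genus_eq T hm] at hle
  have h2 : ∑ i, T.w i * (T.g i - 1) = ∑ i, T.w i * T.g i - ∑ i, T.w i := by
    rw [← Finset.sum_sub_distrib]
    exact Finset.sum_congr rfl fun i _ => by ring
  rw [h2] at hle
  rw [Finset.sum_sub_distrib]
  simp only [Finset.sum_const, Finset.card_univ, Fintype.card_fin, nsmul_eq_mul, mul_one]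
  unfold NumericalType.topGenus at hle
  linarith

/-- every index other than the root has a neighbour `j` with `a_ij = w_i`. -/
theorem exists_neighbour (hm : ∀ i, T.m i = 1) (i₀ : Fin n) (hw : T.w i₀ = 1)
    (hle : T.genus ≤ T.topGenus + ∑ i, T.w i * T.g i) (i : Fin n) (hi : i ≠ i₀) :
    ∃ j, j ≠ i ∧ T.a i j = T.w i := by
  obtain ⟨p, r, h⟩ := exists_parent T i₀
  have h1 := (tree_eq T hw h (sum_le_of_genus_le T hm hle)).1 i hi
  refine ⟨p i, fun h2 => ?_, ?_⟩
  · have := (h i hi).2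
    rw [h2] at this
    exact lt_irrefl _ this
  · rw [a_comm]
    exact h1

/-- there is no stable set of bad indices. -/
theorem not_bad (hm : ∀ i, T.m i = 1) (i₀ : Fin n) (hw : T.w i₀ = 1) (hT : T.IsMinimal)
    (hle : T.genus ≤ T.topGenus + ∑ i, T.w i * T.g i) (Bad : Fin n → Prop)
    (hB0 : ∀ i, Bad i → T.w i ≠ 1) (hB1 : ∀ i j, i ≠ j → T.a i j = T.w j → Bad i → Bad j)
    (hB2 : ∀ i, Bad i → T.g i = 0) (i : Fin n) : ¬ Bad i := by
  classical
  obtain ⟨p, r, h⟩ := exists_parent T i₀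
  obtain ⟨ht1, ht2⟩ := tree_eq T hw h (sum_le_of_genus_le T hm hle)
  intro hi
  obtain ⟨b, hb, hmax⟩ := Finset.exists_max_image (univ.filter Bad) r
    ⟨i, Finset.mem_filter.mpr ⟨mem_univ _, hi⟩⟩
  have hb' : Bad b := (Finset.mem_filter.mp hb).2
  have hb0 : b ≠ i₀ := fun h => hB0 b hb' (by rw [h]; exact hw)
  have hwb : 1 < T.w b := lt_of_le_of_ne (T.w_pos b) (Ne.symm (hB0 b hb'))
  -- all neighbours of `b` other than `p b` do not exist
  have key : ∀ j, j ≠ b → j ≠ p b → T.a b j = 0 := by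
    intro j hj hjp
    by_contra hne
    have hpos : 0 < T.a b j := lt_of_le_of_ne (T.offDiag_nonneg b j hj.symm) (Ne.symm hne)
    have hge : T.w b ≤ T.a b j := Int.le_of_dvd hpos (T.w_dvd b j)
    let q : Fin n × Fin n := if b < j then (b, j) else (j, b)
    have hq : q ∈ edges T := by
      rw [edges, Finset.mem_filter]
      refine ⟨mem_univ _, ?_⟩
      by_cases h : b < j
      · simp only [q, if_pos h]
        exact ⟨h, hpos⟩
      · simp only [q, if_neg h]
        refine ⟨lt_of_le_of_ne (not_lt.mp h) hj, ?_⟩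
        rw [a_comm]
        exact hpos
    have hqa : T.a q.1 q.2 = T.a b j := by
      by_cases h : b < j
      · simp only [q, if_pos h]
      · simp only [q, if_neg h]
        exact a_comm T _ _
    have hqc : q = (b, j) ∨ q = (j, b) := by
      by_cases h : b < j
      · left; simp only [q, if_pos h]
      · right; simp only [q, if_neg h]
    have : ∃ x, x ≠ i₀ ∧ q = ed p x := by
      by_contra hno
      push Not at hno
      have := ht2 q hq hno
      rw [hqa] at this
      omega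
    obtain ⟨x, hx, hxq⟩ := this
    rw [hxq] at hqc
    rcases ed_cases hqc with ⟨h1, h2⟩ | ⟨h1, h2⟩
    · apply hjp
      rw [← h1, h2]
    · -- `x = j`, `p j = b`: `j` is a child of `b`
      subst h1
      have h3 := ht1 x hx
      rw [h2] at h3
      have h4 : Bad x := hB1 b x hj.symm h3 hb'
      have h5 := hmax x (Finset.mem_filter.mpr ⟨mem_univ _, h4⟩)
      have h6 := (h x hx).2
      rw [h2] at h6
      omega
  have hpb : p b ≠ b := fun h2 => by
    have := (h b hb0).2
    rw [h2] at this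
    exact lt_irrefl _ this
  have h0 : ∑ j, T.a b j = 0 := by
    have h := congrFun T.mulVec_m b
    change ∑ j, T.a b j * T.m j = 0 at h
    rw [← h]
    exact Finset.sum_congr rfl fun j _ => by rw [hm, mul_one]
  have h1 : ∑ j, T.a b j = T.a b b + T.a b (p b) := by
    rw [← Finset.add_sum_erase univ (fun j => T.a b j) (mem_univ b),
      ← Finset.add_sum_erase (univ.erase b) (fun j => T.a b j)
        (Finset.mem_erase.mpr ⟨hpb, mem_univ _⟩)]
    rw [Finset.sum_eq_zero (s := (univ.erase b).erase (p b)), add_zero]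
    intro j hj
    exact key j (Finset.ne_of_mem_erase (Finset.mem_of_mem_erase hj)) (Finset.ne_of_mem_erase hj)
  have h2 := ht1 b hb0
  rw [a_comm] at h2
  apply hT b
  refine ⟨hB2 b hb', ?_⟩
  rw [h1, h2] at h0
  linarith

end Groth.Agent.Models.H56.Num2
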