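import Groth.Agent.CurvesB.FibreBC
import Groth.Agent.Etcore.DimBaseChange
import Mathlib.AlgebraicGeometry.Morphisms.Integral

/-!
# Purity in dimension one under algebraic extensions of the base field
-/

set_option autoImplicit false
universe u
open CategoryTheory CategoryTheory.Limits AlgebraicGeometry Topology

namespace Groth.Agent.Models.H56.PureBC

open Groth.Agent.CurvesB

/-- If all irreducible components of `X` have dimension one, so have those of `X_K`, `K/k` algebraic. -/
theorem dimOne_of_isPullback {P X : Scheme.{u}} {k K : Type u} [Field k] [Field K] [Algebra k K]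
    [Algebra.IsAlgebraic k K] (fst : P ⟶ X)
    (snd : P ⟶ Spec (CommRingCat.of K)) (f : X ⟶ Spec (CommRingCat.of k))
    (h : IsPullback fst snd f (Spec.map (CommRingCat.ofHom (algebraMap k K)))) [LocallyOfFiniteType f]
    (hX : ∀ Z ∈ irreducibleComponents (X : Type u), topologicalKrullDim Z = 1) :
    ∀ Z ∈ irreducibleComponents (P : Type u), topologicalKrullDim Z = 1 := by
  rcases isEmpty_or_nonempty P with hP | hP
  · intro Z hZ
    obtain ⟨x, -⟩ := hZ.1.nonempty
    exact hP.elim x
  have hXne : Nonempty X := hP.map fst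
  have hdim : topologicalKrullDim P = 1 := by
    rw [Etcore.DimBaseChange.topologicalKrullDim_eq (Field.toIsField k) (Field.toIsField K) f snd fst _ h]
    exact FibreBC.topologicalKrullDim_eq_one hX
  rw [DimOneTop.topologicalKrullDim_eq_one_iff] at hdim
  rw [DimOneTop.forall_irreducibleComponents_iff] at hX ⊢
  let g := Spec.map (CommRingCat.ofHom (algebraMap k K))
  have hgi : IsIntegralHom g := by
    rw [IsIntegralHom.SpecMap_iff]
    exact algebraMap_isIntegral_iff.2 Algebra.IsAlgebraic.isIntegral
  have h0 : IsIntegralHom fst := MorphismProperty.of_isPullback (P := @IsIntegralHom) h.flip hgi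
  have hgf : Flat g := inferInstance
  have h1 : Flat fst := MorphismProperty.of_isPullback (P := @Flat) h.flip hgf
  have hcl : IsClosedMap fst := fst.isClosedMap
  intro z' hz'
  have hz : ∀ y, y ⤳ fst z' → y = fst z' := by
    intro y hy
    obtain ⟨y', hy', rfl⟩ := Flat.generalizingMap fst hy
    rw [hz' y' hy']
  obtain ⟨⟨x, hx, hne⟩, -⟩ := hX _ hz
  refine ⟨?_, ?_⟩
  · have h2 : x ∈ fst '' (closure {z'}) := by
      have h3 := hcl _ (isClosed_closure (s := {z'}))
      exact hx.mem_closed h3 ⟨z', subset_closure rfl, rfl⟩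
    obtain ⟨x', hx', rfl⟩ := h2
    refine ⟨x', specializes_iff_mem_closure.2 hx', ?_⟩
    rintro rfl
    exact hne rfl
  · intro x' hx' hne'
    rcases hdim.2 x' with h2 | h2
    · exact h2
    · exact absurd (h2 z' hx').symm hne'

end Groth.Agent.Models.H56.PureBC
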