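import Groth.Agent.Models.H45.RedH0
import Groth.Agent.Models.H47.EulerVert

/-!
# The reduced closed fibre as a curve over the residue field

`Y p` is the reduced closed fibre of `p : X → Spec R`, `str p : Y p → Spec k` its structure morphism,
`comp Γ : Γ → Y p` the component with `comp ≫ ι = Γ.ι`.
-/

set_option autoImplicit false
universe u
open CategoryTheory CategoryTheory.Limits AlgebraicGeometry TopologicalSpace

namespace Groth.Agent.Models.H56.RedFib

open Groth.Agent.Models.H45.RedH0

variable {R : Type u} [CommRing R] [IsDomain R] [IsDiscreteValuationRing R]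
  {X : Scheme.{u}} (p : X ⟶ Spec (CommRingCat.of R))

/-- the reduced closed fibre. -/
noncomputable abbrev Y : Scheme.{u} := (Models.redFibreIdeal R (Over.mk p)).subscheme

/-- its inclusion. -/
noncomputable abbrev incl : Y p ⟶ X := (Models.redFibreIdeal R (Over.mk p)).subschemeι

theorem range_incl : Set.range (incl p) = Models.specialFibreSet R (Over.mk p) :=
  range_redFibre (Over.mk p)

instance : IsReduced (Y p) := isReduced_redFibre (Over.mk p)

theorem exists_str : ∃ q : Y p ⟶ Spec (CommRingCat.of (IsLocalRing.ResidueField R)),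
    q ≫ Spec.map (CommRingCat.ofHom (IsLocalRing.residue R)) = incl p ≫ p :=
  exists_factor (incl p ≫ p) fun y => by
    have h1 : incl p y ∈ Models.specialFibreSet R (Over.mk p) := by
      rw [← range_incl]
      exact ⟨y, rfl⟩
    exact h1

/-- the structure morphism of the reduced closed fibre over the residue field. -/
noncomputable def str : Y p ⟶ Spec (CommRingCat.of (IsLocalRing.ResidueField R)) := (exists_str p).choose

theorem str_comp : str p ≫ Spec.map (CommRingCat.ofHom (IsLocalRing.residue R)) = incl p ≫ p :=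
  (exists_str p).choose_spec

theorem isClosedImmersion_residue :
    IsClosedImmersion (Spec.map (CommRingCat.ofHom (IsLocalRing.residue R))) :=
  IsClosedImmersion.spec_of_surjective _ IsLocalRing.residue_surjective

theorem isProper_str [IsProper p] : IsProper (str p) := by
  have h1 : IsProper (str p ≫ Spec.map (CommRingCat.ofHom (IsLocalRing.residue R))) := by
    rw [str_comp]
    infer_instance
  exact IsProper.of_comp (str p) (Spec.map (CommRingCat.ofHom (IsLocalRing.residue R)))

theorem exists_comp (Γ : ArSurf.VertComp R (Over.mk p)) :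
    ∃ j : Γ.curve.left ⟶ Y p, j ≫ incl p = Γ.ι := by
  refine Ega1.ReducedSub.exists_factor_of_range_subset Γ.ι (incl p) ?_
  rw [range_incl]
  rintro _ ⟨y, rfl⟩
  change p (Γ.ι y) = IsLocalRing.closedPoint R
  rw [← Scheme.Hom.comp_apply]
  have h : Γ.ι ≫ p = Γ.curve.hom ≫ Spec.map (CommRingCat.ofHom (IsLocalRing.residue R)) := Γ.w
  rw [h, Scheme.Hom.comp_apply]
  change (PrimeSpectrum.comap (IsLocalRing.residue R)) (Γ.curve.hom y) = _
  ext1
  change Ideal.comap (IsLocalRing.residue R) (Γ.curve.hom y).asIdeal = IsLocalRing.maximalIdeal R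
  rw [(Ideal.eq_bot_of_prime (Γ.curve.hom y).asIdeal : (Γ.curve.hom y).asIdeal = ⊥)]
  exact IsLocalRing.ker_residue

/-- a component of the closed fibre, as a closed subscheme of the reduced closed fibre. -/
noncomputable def comp (Γ : ArSurf.VertComp R (Over.mk p)) : Γ.curve.left ⟶ Y p := (exists_comp p Γ).choose

theorem comp_incl (Γ : ArSurf.VertComp R (Over.mk p)) : comp p Γ ≫ incl p = Γ.ι :=
  (exists_comp p Γ).choose_spec

theorem comp_str (Γ : ArSurf.VertComp R (Over.mk p)) : comp p Γ ≫ str p = Γ.curve.hom := by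
  have := isClosedImmersion_residue (R := R)
  rw [← cancel_mono (Spec.map (CommRingCat.ofHom (IsLocalRing.residue R))), Category.assoc, str_comp,
    ← Category.assoc, comp_incl]
  exact Γ.w

instance (Γ : ArSurf.VertComp R (Over.mk p)) : IsClosedImmersion (comp p Γ) := by
  have h1 : IsClosedImmersion (comp p Γ ≫ incl p) := by
    rw [comp_incl]
    infer_instance
  exact IsClosedImmersion.of_comp (comp p Γ) (incl p)

theorem image_range_comp (Γ : ArSurf.VertComp R (Over.mk p)) :
    (incl p) '' (Set.range (comp p Γ)) = Set.range Γ.ι := by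
  rw [← Set.range_comp, ← comp_incl p Γ]
  rfl

theorem incl_injective : Function.Injective (incl p) := (incl p).isClosedEmbedding.injective

theorem comp_injective {n : ℕ} {Γ : Fin n → ArSurf.VertComp R (Over.mk p)}
    (hΓ : Models.IsComponentList R (Over.mk p) Γ) :
    Function.Injective fun i => Set.range (comp p (Γ i)) := by
  intro i j hij
  apply hΓ.1
  change Set.range (Γ i).ι = Set.range (Γ j).ι
  rw [← image_range_comp, ← image_range_comp]
  exact congrArg _ hij

theorem isIrreducible_image_iff {A B : Type*} [TopologicalSpace A] [TopologicalSpace B] {i : A → B}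
    (hi : Topology.IsEmbedding i) (t : Set A) : IsIrreducible (i '' t) ↔ IsIrreducible t := by
  constructor
  · intro h
    have h1 := h.nonempty
    refine ⟨h1.of_image, ?_⟩
    intro U V hU hV hUt hVt
    obtain ⟨U', hU', rfl⟩ := hi.isInducing.isOpen_iff.mp hU
    obtain ⟨V', hV', rfl⟩ := hi.isInducing.isOpen_iff.mp hV
    obtain ⟨x, hx1, hx2⟩ := hUt
    obtain ⟨y, hy1, hy2⟩ := hVt
    obtain ⟨z, ⟨w, hw, rfl⟩, hz⟩ := h.2 U' V' hU' hV' ⟨i x, ⟨x, hx1, rfl⟩, hx2⟩ ⟨i y, ⟨y, hy1, rfl⟩, hy2⟩
    exact ⟨w, hw, hz⟩
  · intro h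
    exact h.image i hi.continuous.continuousOn

theorem mem_irreducibleComponents_iff (t : Set (Y p)) :
    t ∈ irreducibleComponents (Y p) ↔ (incl p) '' t ∈ Models.fibreComponents R (Over.mk p) := by
  have hi : Topology.IsEmbedding (incl p) := (incl p).isClosedEmbedding.isEmbedding
  have hr := range_incl p
  constructor
  · intro h
    refine ⟨⟨(isIrreducible_image_iff hi t).2 h.1, ?_⟩, ?_⟩
    · rw [← hr]
      exact Set.image_subset_range _ _
    · intro s hs hts
      have hs' : s = (incl p) '' ((incl p) ⁻¹' s) := by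
        rw [Set.image_preimage_eq_inter_range, Set.inter_eq_left.2]
        rw [hr]
        exact hs.2
      have h1 : IsIrreducible ((incl p) ⁻¹' s) := by
        rw [← isIrreducible_image_iff hi, ← hs']
        exact hs.1
      have h2 : t ⊆ (incl p) ⁻¹' s := Set.image_subset_iff.mp hts
      have h3 := h.2 h1 h2
      change s ⊆ (incl p) '' t
      rw [hs']
      exact Set.image_mono h3
  · intro h
    refine ⟨(isIrreducible_image_iff hi t).1 h.1.1, ?_⟩
    intro s hs hts
    have h1 : (incl p) '' s ⊆ (incl p) '' t := h.2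
      ⟨(isIrreducible_image_iff hi s).2 hs, by rw [← hr]; exact Set.image_subset_range _ _⟩
      (Set.image_mono hts)
    exact (Set.image_subset_image_iff (incl_injective p)).mp h1

theorem range_comp_eq {n : ℕ} {Γ : Fin n → ArSurf.VertComp R (Over.mk p)}
    (hΓ : Models.IsComponentList R (Over.mk p) Γ) :
    Set.range (fun i => Set.range (comp p (Γ i))) = irreducibleComponents (Y p) := by
  ext t
  rw [mem_irreducibleComponents_iff, ← hΓ.2]
  constructor
  · rintro ⟨i, rfl⟩
    exact ⟨i, (image_range_comp p (Γ i)).symm⟩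
  · rintro ⟨i, hi⟩
    refine ⟨i, ?_⟩
    apply (Set.image_injective.2 (incl_injective p))
    change (incl p) '' (Set.range (comp p (Γ i))) = _
    rw [image_range_comp]
    exact hi

/-- lengths of the cohomology of `O_Y` on `X` are dimensions. -/
theorem lengthH_eq [IsProper p] (i : ℕ) :
    Models.lengthH R (Over.mk p) (ClSub.quotMod (Models.redFibreIdeal R (Over.mk p))) i =
      Models.hRank (IsLocalRing.ResidueField R) (Y p) (str p) (Coh.structureModule (Y p)) i := by
  have hpr := isProper_str p
  let _ : (Y p).Over (Spec (CommRingCat.of R)) := ⟨incl p ≫ p⟩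
  let _ : (Y p).Over (Spec (CommRingCat.of (IsLocalRing.ResidueField R))) := ⟨str p⟩
  let _ : X.Over (Spec (CommRingCat.of R)) := ⟨p⟩
  have : IsProper (Y p ↘ Spec (CommRingCat.of (IsLocalRing.ResidueField R))) := hpr
  have h1 := (CurvesC.CurveNum.hhPushₗ R (incl p) rfl (Coh.structureModule (Y p)) i).length_eq
  have h2 := H47.EulerVert.length_over (IsLocalRing.residue R) IsLocalRing.residue_surjective
    (Z := Y p) (str_comp p).symm (Coh.structureModule (Y p)) i
  have h3 : Module.Finite (IsLocalRing.ResidueField R) (Coh.HH (Y p) (Coh.structureModule (Y p)) i) :=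
    Groth.Agent.S0002.result _ (Y p) _ (CurvesC.UnitCoh.isCoh_unit (Y p)) i
  have h4 : Module.length (IsLocalRing.ResidueField R) (Coh.HH (Y p) (Coh.structureModule (Y p)) i) =
      Module.finrank (IsLocalRing.ResidueField R) (Coh.HH (Y p) (Coh.structureModule (Y p)) i) :=
    Module.length_eq_finrank _ _
  unfold Models.lengthH
  change (Module.length R (Coh.HH X (ClSub.quotMod (Models.redFibreIdeal R (Over.mk p))) i)).toNat =
    Module.finrank (IsLocalRing.ResidueField R) (Coh.HH (Y p) (Coh.structureModule (Y p)) i)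
  have h5 : Module.length R (Coh.HH X (ClSub.quotMod (Models.redFibreIdeal R (Over.mk p))) i) =
      Module.finrank (IsLocalRing.ResidueField R) (Coh.HH (Y p) (Coh.structureModule (Y p)) i) := by
    rw [← h4, ← h2]
    exact h1.symm
  rw [h5]
  rfl

end Groth.Agent.Models.H56.RedFib
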